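import Mathlib
import Cfsg.Prelude.Def_Blocks
import Cfsg.Agent.Lib.Helper2.BlockReg3
import Cfsg.Agent.Lib.Helper2.BlockLam
import Cfsg.Agent.Lib.Helper7.Brauer11
import Cfsg.Agent.Lib.Helper7.Brauer12
import Cfsg.Agent.Lib.Helper7.BPair2
import Cfsg.Agent.Lib.Helper7.BCount1

set_option autoImplicit false
set_option linter.unusedSectionVars false
set_option linter.unusedVariables false
set_option linter.style.haveILetI false

/-! Regular parts of block characters lie in the span of the block. -/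

namespace Cfsg.Agent.Lib.Helper7.BSpan1

open Cfsg Cfsg.Agent.Lib.Helper7.CharIrr Cfsg.Agent.Lib.Helper7.CharOrth
  Cfsg.Agent.Lib.Helper7.CharIntegral Cfsg.Agent.Lib.Helper7.CharMore
  Cfsg.Agent.Lib.Helper7.CharClassAlg Cfsg.Agent.Lib.Helper7.CharComplete
  Cfsg.Agent.Lib.Helper7.CharDeg Cfsg.Agent.Lib.Helper7.CharGalois
  Cfsg.Agent.Lib.Helper7.CharClassAlg2 Cfsg.Agent.Lib.Helper7.CharInd
  Cfsg.Agent.Lib.Helper7.CharBasic Cfsg.Agent.Lib.Helper7.CharGen Cfsg.Agent.Lib.Helper7.CharRes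
  Cfsg.Agent.Lib.Helper7.Brauer11 Cfsg.Agent.Lib.Helper7.Brauer12
  Cfsg.Agent.Lib.Helper2.LocRing Cfsg.Agent.Lib.Helper2.BlockLam
  Cfsg.Agent.Lib.Helper2.BlockZ Cfsg.Agent.Lib.Helper2.BlockDef Cfsg.Agent.Lib.Helper2.BlockCong
  Cfsg.Agent.Lib.Helper2.BlockHt Cfsg.Agent.Lib.Helper2.BlockReg Cfsg.Agent.Lib.Helper2.BlockBr2
  Cfsg.Agent.Lib.Helper2.BlockSub Cfsg.Agent.Lib.Helper2.BlockReg2 Cfsg.Agent.Lib.Helper2.BlockReg3
open scoped ComplexConjugate

variable {G : Type*} [Group G] [Fintype G]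


open Cfsg.Agent.Lib.Helper7.BCount1

theorem classInner_pReg_eq_zero {M : Ideal AlgInt} {p : ℕ} [Fact p.Prime] (hM : IsPModular p M)
    {B : Set (IrrCharacter G)} (hB : IsPBlock M B) {χ ψ : IrrCharacter G} (hχ : χ ∈ B)
    (hψ : ψ ∉ B) : classInner (pReg p (χ : G → ℂ)) (ψ : G → ℂ) = 0 := by
  haveI := hM.2.1.isPrime
  have hns : ¬ SameBlock M (ψ : G → ℂ) (χ : G → ℂ) := by
    intro h
    apply hψ
    obtain ⟨χ₀, rfl⟩ := hB
    exact sameBlock_trans hχ (sameBlock_symm h)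
  have h2 := W_creg_eq_zero hM χ ψ hns
  have h3 := conj_classInner_pReg p (χ : G → ℂ) (ψ : G → ℂ) (irr_one_ne_zero ψ.2)
  rw [h2, mul_zero, mul_zero] at h3
  have := congrArg (starRingEnd ℂ) h3
  rwa [Complex.conj_conj, map_zero] at this

/-- If `c • χ°` is a generalized character, it is an integer combination of the block. -/
theorem gen_pReg_eq_sum {M : Ideal AlgInt} {p : ℕ} [Fact p.Prime] (hM : IsPModular p M)
    {B : Set (IrrCharacter G)} (hB : IsPBlock M B) {χ : IrrCharacter G} (hχ : χ ∈ B) (c : ℂ)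
    (hgen : IsGeneralizedCharacter G (c • pReg p (χ : G → ℂ))) [Fintype (IrrCharacter G)] :
    ∃ a : IrrCharacter G → ℤ, (∀ ψ, ψ ∉ B → a ψ = 0) ∧
      c • pReg p (χ : G → ℂ) = ∑ ψ : IrrCharacter G, (a ψ : ℂ) • (ψ : G → ℂ) := by
  obtain ⟨a, ha, hsum⟩ := gen_eq_sum hgen
  refine ⟨a, ?_, hsum⟩
  intro ψ hψ
  have h1 := ha ψ
  rw [classInner_smul_left, classInner_pReg_eq_zero hM hB hχ hψ, mul_zero] at h1
  exact_mod_cast h1.symm

end Cfsg.Agent.Lib.Helper7.BSpan1
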