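import Mathlib
import Cfsg.Prelude.Def_Blocks
import Cfsg.Agent.Lib.Helper2.BlockReg3
import Cfsg.Agent.Lib.Helper2.BlockLam
import Cfsg.Agent.Lib.Helper7.Brauer11
import Cfsg.Agent.Lib.Helper7.Brauer12
import Cfsg.Agent.Lib.Helper7.BPair2
import Cfsg.Agent.Lib.Helper7.BCount1
import Cfsg.Agent.Lib.Helper7.BSpan1

set_option autoImplicit false
set_option linter.unusedSectionVars false
set_option linter.unusedVariables false
set_option linter.style.haveILetI false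

/-! The Brauer-Feit bound. -/

namespace Cfsg.Agent.Lib.Helper7.BFeit1

open Cfsg Cfsg.Agent.Lib.Helper7.CharIrr Cfsg.Agent.Lib.Helper7.CharOrth
  Cfsg.Agent.Lib.Helper7.CharIntegral Cfsg.Agent.Lib.Helper7.CharMore
  Cfsg.Agent.Lib.Helper7.CharClassAlg Cfsg.Agent.Lib.Helper7.CharComplete
  Cfsg.Agent.Lib.Helper7.CharDeg Cfsg.Agent.Lib.Helper7.CharGalois
  Cfsg.Agent.Lib.Helper7.CharClassAlg2 Cfsg.Agent.Lib.Helper7.CharInd
  Cfsg.Agent.Lib.Helper7.CharBasic Cfsg.Agent.Lib.Helper7.CharGen Cfsg.Agent.Lib.Helper7.CharRes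
  Cfsg.Agent.Lib.Helper7.Brauer11 Cfsg.Agent.Lib.Helper7.Brauer12
  Cfsg.Agent.Lib.Helper2.LocRing Cfsg.Agent.Lib.Helper2.BlockLam
  Cfsg.Agent.Lib.Helper2.BlockZ Cfsg.Agent.Lib.Helper2.BlockDef Cfsg.Agent.Lib.Helper2.BlockCong
  Cfsg.Agent.Lib.Helper2.BlockHt Cfsg.Agent.Lib.Helper2.BlockReg Cfsg.Agent.Lib.Helper2.BlockBr2
  Cfsg.Agent.Lib.Helper2.BlockSub Cfsg.Agent.Lib.Helper2.BlockReg2 Cfsg.Agent.Lib.Helper2.BlockReg3
open scoped ComplexConjugate

variable {G : Type*} [Group G] [Fintype G]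

open Cfsg.Agent.Lib.Helper7.BCount1 Cfsg.Agent.Lib.Helper7.BSpan1

theorem isGen_pow_pReg (p : ℕ) (hp : p.Prime) (ψ : IrrCharacter G) :
    IsGeneralizedCharacter G (((p ^ ((Nat.card G).factorization p -
      (charDegree (ψ : G → ℂ)).factorization p) : ℕ) : ℂ) • pReg p (ψ : G → ℂ)) := by
  obtain ⟨m, ρ, hirr, hρ⟩ := ψ.2
  haveI := hirr
  have h1m : (ψ : G → ℂ) 1 = m := by rw [← hρ, Representation.char_one]; simp
  have hdeg : charDegree (ψ : G → ℂ) = m := charDegree_of_eq h1m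
  have h := isGen_pow_sub_smul_pReg p hp ρ
  rw [hρ] at h
  rw [hdeg]
  exact h

theorem classInner_pReg_swap (p : ℕ) (χ ψ : G → ℂ) :
    classInner (pReg p χ) ψ = classInner χ (pReg p ψ) := by
  unfold classInner pReg
  congr 1
  apply Finset.sum_congr rfl
  intro g _
  split_ifs <;> simp

theorem classInner_pReg_pReg (p : ℕ) (χ ψ : G → ℂ) :
    classInner (pReg p χ) (pReg p ψ) = classInner (pReg p χ) ψ := by
  unfold classInner pReg
  congr 1
  apply Finset.sum_congr rfl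
  intro g _
  split_ifs <;> simp

theorem exists_height_zero {p : ℕ} {B : Set (IrrCharacter G)} (hne : B.Nonempty) :
    ∃ χ ∈ B, blockHeight p B (χ : G → ℂ) = 0 := by
  have h1 : ((fun χ : IrrCharacter G => (charDegree (χ : G → ℂ)).factorization p) '' B).Nonempty :=
    hne.image _
  obtain ⟨χ, hχ, h2⟩ := Nat.sInf_mem h1
  refine ⟨χ, hχ, ?_⟩
  unfold blockHeight
  simp only at h2
  rw [h2, Nat.sub_self]

theorem brauer_feit {M : Ideal AlgInt} {p : ℕ} [Fact p.Prime] (hM : IsPModular p M)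
    {B : Set (IrrCharacter G)} (hB : IsPBlock M B) (S : Finset (IrrCharacter G))
    (hS : ∀ ψ, ψ ∈ S ↔ ψ ∈ B) :
    ∑ χ ∈ S, p ^ (2 * blockHeight p B (χ : G → ℂ)) ≤ (p ^ blockDefect p B) ^ 2 / 4 + 1 := by
  classical
  haveI := Fintype.ofFinite (IrrCharacter G)
  haveI := hM.2.1.isPrime
  have hp : p.Prime := hM.1
  obtain ⟨χ, hχ, h0⟩ := exists_height_zero (p := p) (block_nonempty hB)
  obtain ⟨s, hs⟩ : ∃ s, s = sInf ((fun χ : IrrCharacter G =>
    (charDegree (χ : G → ℂ)).factorization p) '' B) := ⟨_, rfl⟩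
  obtain ⟨a, ha⟩ : ∃ a, a = (Nat.card G).factorization p := ⟨_, rfl⟩
  obtain ⟨d, hd⟩ : ∃ d, d = blockDefect p B := ⟨_, rfl⟩
  have hda : d = a - s := by rw [hd, ha, hs]; rfl
  have hsle : ∀ ψ ∈ B, s ≤ (charDegree (ψ : G → ℂ)).factorization p := by
    intro ψ hψ
    rw [hs]
    exact Nat.sInf_le (Set.mem_image_of_mem _ hψ)
  have hlea : ∀ ψ : IrrCharacter G, (charDegree (ψ : G → ℂ)).factorization p ≤ a := by
    intro ψ
    rw [ha]
    exact (Nat.factorization_le_iff_dvd (charDegree_pos ψ.2).ne' Nat.card_pos.ne').mpr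
      (charDegree_dvd_card ψ.2) p
  have hh : ∀ ψ : IrrCharacter G, blockHeight p B (ψ : G → ℂ) =
      (charDegree (ψ : G → ℂ)).factorization p - s := by
    intro ψ
    rw [hs]; rfl
  have hχs : (charDegree (χ : G → ℂ)).factorization p = s := by
    have h1 := hsle χ hχ
    have h2 := hh χ
    omega
  have hgen := isGen_pow_pReg p hp χ
  rw [hχs, ← ha, ← hda] at hgen
  obtain ⟨c, hc, -⟩ := gen_eq_sum hgen
  have hnorm := norm_gen (isGen_isClassFunction hgen) c hc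
  rw [classInner_smul_right, Complex.conj_natCast, classInner_smul_left, classInner_pReg_pReg,
    ← classInner_smul_left, hc χ] at hnorm
  have hnorm' : ((p ^ d : ℕ) : ℤ) * c χ = ∑ ψ : IrrCharacter G, c ψ ^ 2 := by exact_mod_cast hnorm
  have hge : ∀ ψ ∈ B, ((p ^ (2 * blockHeight p B (ψ : G → ℂ)) : ℕ) : ℤ) ≤ c ψ ^ 2 := by
    intro ψ hψ
    obtain ⟨h, hhψ⟩ : ∃ h, h = blockHeight p B (ψ : G → ℂ) := ⟨_, rfl⟩
    rw [← hhψ]
    have h1 := hsle ψ hψ
    have h2 := hlea ψ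
    have h3 := hh ψ
    have hgenψ := isGen_pow_pReg p hp ψ
    have e1 : (Nat.card G).factorization p - (charDegree (ψ : G → ℂ)).factorization p = d - h := by
      omega
    have e2 : d = h + (d - h) := by omega
    rw [e1] at hgenψ
    obtain ⟨k, hk⟩ := classInner_gen_int hgenψ (IsIrrCharacter.isCharacter χ.2)
    have hck : c ψ = ((p ^ h : ℕ) : ℤ) * k := by
      have h4 := hc ψ
      rw [classInner_smul_left, classInner_pReg_swap, ← classInner_conj_symm] at h4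
      rw [classInner_smul_left] at hk
      have h5 : classInner (pReg p (ψ : G → ℂ)) (χ : G → ℂ) = (k : ℂ) / ((p ^ (d - h) : ℕ) : ℂ) := by
        rw [← hk]
        have : ((p ^ (d - h) : ℕ) : ℂ) ≠ 0 := Nat.cast_ne_zero.mpr (pow_pos hp.pos _).ne'
        field_simp
      rw [h5, map_div₀, Complex.conj_natCast, map_intCast] at h4
      have h6 : ((p ^ d : ℕ) : ℂ) = ((p ^ h : ℕ) : ℂ) * ((p ^ (d - h) : ℕ) : ℂ) := by
        rw [← Nat.cast_mul, ← pow_add, ← e2]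
      rw [h6] at h4
      have h7 : ((p ^ (d - h) : ℕ) : ℂ) ≠ 0 := Nat.cast_ne_zero.mpr (pow_pos hp.pos _).ne'
      have h8 : (c ψ : ℂ) = ((p ^ h : ℕ) : ℂ) * (k : ℂ) := by
        rw [← h4]
        field_simp
      exact_mod_cast h8
    have hcne : c ψ ≠ 0 := by
      intro hz
      have h4 := hc ψ
      rw [hz, classInner_smul_left] at h4
      have h5 := classInner_pReg_ne_zero hM hB hχ hψ h0
      have h6 : ((p ^ d : ℕ) : ℂ) ≠ 0 := Nat.cast_ne_zero.mpr (pow_pos hp.pos d).ne'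
      simp only [Int.cast_zero] at h4
      exact (mul_ne_zero h6 h5) h4
    have hkne : k ≠ 0 := by
      rintro rfl
      apply hcne
      rw [hck, mul_zero]
    have hk1 : 1 ≤ k ^ 2 := by
      have : 0 < k ^ 2 := by positivity
      omega
    rw [hck, mul_pow]
    have e3 : ((p ^ (2 * h) : ℕ) : ℤ) = ((p ^ h : ℕ) : ℤ) ^ 2 := by
      push_cast
      ring
    rw [e3]
    have : (0 : ℤ) ≤ ((p ^ h : ℕ) : ℤ) ^ 2 := by positivity
    nlinarith
  have hχS : χ ∈ S := (hS χ).mpr hχ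
  have hsplit : ∑ ψ : IrrCharacter G, c ψ ^ 2 =
      c χ ^ 2 + ∑ ψ ∈ Finset.univ.erase χ, c ψ ^ 2 :=
    (Finset.add_sum_erase _ _ (Finset.mem_univ χ)).symm
  have hle1 : ((∑ ψ ∈ S.erase χ, p ^ (2 * blockHeight p B (ψ : G → ℂ)) : ℕ) : ℤ) ≤
      ∑ ψ ∈ Finset.univ.erase χ, c ψ ^ 2 := by
    push_cast
    calc ∑ ψ ∈ S.erase χ, (p : ℤ) ^ (2 * blockHeight p B (ψ : G → ℂ))
        ≤ ∑ ψ ∈ S.erase χ, c ψ ^ 2 := by
          apply Finset.sum_le_sum
          intro ψ hψ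
          have := hge ψ ((hS ψ).mp (Finset.mem_of_mem_erase hψ))
          exact_mod_cast this
      _ ≤ ∑ ψ ∈ Finset.univ.erase χ, c ψ ^ 2 :=
          Finset.sum_le_sum_of_subset_of_nonneg
            (Finset.erase_subset_erase _ (Finset.subset_univ _)) (fun ψ _ _ => by positivity)
  rw [← hd, ← Finset.add_sum_erase _ _ hχS, h0, mul_zero, pow_zero, add_comm]
  apply Nat.add_le_add_right
  rw [Nat.le_div_iff_mul_le (by norm_num)]
  have hfin : ((∑ ψ ∈ S.erase χ, p ^ (2 * blockHeight p B (ψ : G → ℂ)) : ℕ) : ℤ) * 4 ≤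
      (((p ^ d) ^ 2 : ℕ) : ℤ) := by
    have h9 : ∑ ψ ∈ Finset.univ.erase χ, c ψ ^ 2 = ((p ^ d : ℕ) : ℤ) * c χ - c χ ^ 2 := by
      rw [hnorm', hsplit]; ring
    rw [h9] at hle1
    push_cast at hle1 ⊢
    nlinarith [sq_nonneg ((p : ℤ) ^ d - 2 * c χ)]
  exact_mod_cast hfin

end Cfsg.Agent.Lib.Helper7.BFeit1
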