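import Mathlib
import Cfsg.Prelude.Def_Blocks
import Cfsg.Agent.Lib.Helper2.BlockReg3
import Cfsg.Agent.Lib.Helper2.BlockLam
import Cfsg.Agent.Lib.Helper7.Brauer11
import Cfsg.Agent.Lib.Helper7.Brauer12
import Cfsg.Agent.Lib.Helper7.BPair2
import Cfsg.Agent.Lib.Helper7.BCount1
import Cfsg.Agent.Lib.Helper7.BFeit1
import Cfsg.Agent.Lib.Helper7.CharCount
import Cfsg.Agent.Lib.Helper7.BCount2
import Cfsg.Agent.Lib.Helper2.BlockOrth

set_option autoImplicit false
set_option linter.unusedSectionVars false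
set_option linter.unusedVariables false
set_option linter.style.haveILetI false

/-! A stable 2-block of full defect is principal. -/

namespace Cfsg.Agent.Lib.Helper7.BReal1

open Cfsg Cfsg.Agent.Lib.Helper7.CharIrr Cfsg.Agent.Lib.Helper7.CharOrth
  Cfsg.Agent.Lib.Helper7.CharIntegral Cfsg.Agent.Lib.Helper7.CharMore
  Cfsg.Agent.Lib.Helper7.CharClassAlg Cfsg.Agent.Lib.Helper7.CharComplete
  Cfsg.Agent.Lib.Helper7.CharDeg Cfsg.Agent.Lib.Helper7.CharGalois
  Cfsg.Agent.Lib.Helper7.CharClassAlg2 Cfsg.Agent.Lib.Helper7.CharInd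
  Cfsg.Agent.Lib.Helper7.CharBasic Cfsg.Agent.Lib.Helper7.CharGen Cfsg.Agent.Lib.Helper7.CharRes
  Cfsg.Agent.Lib.Helper7.Brauer11 Cfsg.Agent.Lib.Helper7.Brauer12
  Cfsg.Agent.Lib.Helper2.LocRing Cfsg.Agent.Lib.Helper2.BlockLam
  Cfsg.Agent.Lib.Helper2.BlockZ Cfsg.Agent.Lib.Helper2.BlockDef Cfsg.Agent.Lib.Helper2.BlockCong
  Cfsg.Agent.Lib.Helper2.BlockHt Cfsg.Agent.Lib.Helper2.BlockReg Cfsg.Agent.Lib.Helper2.BlockBr2
  Cfsg.Agent.Lib.Helper2.BlockSub Cfsg.Agent.Lib.Helper2.BlockReg2 Cfsg.Agent.Lib.Helper2.BlockReg3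
open scoped ComplexConjugate

variable {G : Type*} [Group G] [Fintype G]

open Cfsg.Agent.Lib.Helper7.BCount1 Cfsg.Agent.Lib.Helper7.BFeit1 Cfsg.Agent.Lib.Helper7.CharCount
  Cfsg.Agent.Lib.Helper7.BPair2 Cfsg.Agent.Lib.Helper2.BlockOrth

theorem centralizer_inv (g : G) :
    Subgroup.centralizer ({g⁻¹} : Set G) = Subgroup.centralizer {g} := by
  ext x
  simp only [Subgroup.mem_centralizer_iff, Set.mem_singleton_iff, forall_eq]
  exact Commute.inv_left_iff

theorem sum_sub_one_mem {M : Ideal AlgInt} [M.IsPrime] (hM : IsPModular 2 M) (F : G → ℂ)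
    (hcl : IsClassFunction G F) (hR : ∀ g, F g ∈ Rloc M) (hsing : ∀ g, 2 ∣ orderOf g → F g = 0)
    (hpair : ∀ g, ¬ 2 ∣ orderOf g → ¬ 2 ∣ (Subgroup.centralizer ({g} : Set G)).index →
      F g + F g⁻¹ ∈ Iloc M) :
    ∑ g, F g - F 1 ∈ Iloc M := by
  classical
  haveI := Fintype.ofFinite (ConjClasses G)
  have hclE : IsClassFunction G
      (fun g => if 2 ∣ (Subgroup.centralizer ({g} : Set G)).index then F g else 0) := by
    intro g h
    have h1 : IsConj g (h * g * h⁻¹) := isConj_iff.mpr ⟨h, rfl⟩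
    simp only [← index_centralizer_eq_of_isConj h1, hcl g h]
  have h1 : ∑ g, (if 2 ∣ (Subgroup.centralizer ({g} : Set G)).index then F g else 0) ∈ Iloc M := by
    rw [sum_eq_sum_classes hclE]
    apply Submodule.sum_mem
    intro K _
    by_cases hK : 2 ∣ (Subgroup.centralizer ({K.out} : Set G)).index
    · simp only [if_pos hK]
      exact mul_mem_Iloc' ((natCast_mem_Iloc_iff hM _).mpr hK) (hR _)
    · simp only [if_neg hK, mul_zero]
      exact (Iloc M).zero_mem
  obtain ⟨S, hS⟩ : ∃ S : Finset G, S = Finset.univ.filter (fun g : G =>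
    ¬ 2 ∣ (Subgroup.centralizer ({g} : Set G)).index ∧ ¬ 2 ∣ orderOf g ∧ g ≠ 1) := ⟨_, rfl⟩
  have hq : ∀ x : ℂ, (Iloc M).mkQ x = 0 ↔ x ∈ Iloc M := fun x => by
    rw [← LinearMap.mem_ker, Submodule.ker_mkQ]
  have h2 : ∑ g ∈ S, F g ∈ Iloc M := by
    rw [← hq, map_sum]
    apply Finset.sum_involution (fun g _ => g⁻¹)
    · intro g hg
      rw [hS, Finset.mem_filter] at hg
      rw [← map_add, hq]
      exact hpair g hg.2.2.1 hg.2.1
    · intro g hg _ h
      rw [hS, Finset.mem_filter] at hg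
      have h1 : g ^ 2 = 1 := by
        rw [pow_two]
        nth_rewrite 1 [← h]
        exact inv_mul_cancel g
      have h2 := orderOf_dvd_of_pow_eq_one h1
      rcases (Nat.dvd_prime Nat.prime_two).mp h2 with h3 | h3
      · exact hg.2.2.2 (orderOf_eq_one_iff.mp h3)
      · exact hg.2.2.1 (by rw [h3])
    · intro g _
      exact inv_inv g
    · intro g hg
      rw [hS, Finset.mem_filter] at hg ⊢
      refine ⟨Finset.mem_univ _, ?_, ?_, inv_ne_one.mpr hg.2.2.2⟩
      · rw [centralizer_inv]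
        exact hg.2.1
      · rw [orderOf_inv]
        exact hg.2.2.1
  have hone : ¬ 2 ∣ (Subgroup.centralizer ({1} : Set G)).index := by
    have h10 : Subgroup.centralizer ({1} : Set G) = ⊤ := by
      rw [eq_top_iff]
      intro x _
      rw [Subgroup.mem_centralizer_iff]
      intro y hy
      rw [Set.mem_singleton_iff.mp hy]
      simp
    rw [h10, Subgroup.index_top]
    norm_num
  have h3 : ∑ g, F g = ∑ g, (if 2 ∣ (Subgroup.centralizer ({g} : Set G)).index then F g else 0) +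
      F 1 + ∑ g ∈ S, F g := by
    have pt : ∀ g : G, F g = (if 2 ∣ (Subgroup.centralizer ({g} : Set G)).index then F g else 0) +
        (if g = 1 then F 1 else 0) +
        (if ¬ 2 ∣ (Subgroup.centralizer ({g} : Set G)).index ∧ ¬ 2 ∣ orderOf g ∧ g ≠ 1
          then F g else 0) := by
      intro g
      by_cases hE : 2 ∣ (Subgroup.centralizer ({g} : Set G)).index
      · have hg : g ≠ 1 := by
          rintro rfl
          exact hone hE
        simp [hE, hg]
      · by_cases hg : g = 1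
        · subst hg
          simp [hE]
        · by_cases h2 : 2 ∣ orderOf g
          · simp [hE, hg, h2, hsing g h2]
          · simp [hE, hg, h2]
    rw [Finset.sum_congr rfl (fun g _ => pt g), Finset.sum_add_distrib, Finset.sum_add_distrib, hS,
      Finset.sum_filter]
    simp
  rw [h3]
  have e : ∑ g, (if 2 ∣ (Subgroup.centralizer ({g} : Set G)).index then F g else 0) +
      F 1 + ∑ g ∈ S, F g - F 1 =
      ∑ g, (if 2 ∣ (Subgroup.centralizer ({g} : Set G)).index then F g else 0) +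
        ∑ g ∈ S, F g := by ring
  rw [e]
  exact (Iloc M).add_mem h1 h2

theorem blockCoeff_pow {B : Set (IrrCharacter G)} (k : ℕ) (hk : Nat.Coprime k (Nat.card G))
    (hstab : ∀ χ ∈ B, ∃ ψ ∈ B, ∀ g : G, (ψ : G → ℂ) g = (χ : G → ℂ) (g ^ k)) (g : G) :
    blockCoeff B (g ^ k) = blockCoeff B g := by
  classical
  choose! τ hτB hτ using hstab
  unfold blockCoeff
  congr 1
  rw [finsum_mem_eq_finite_toFinset_sum _ (Set.toFinite B),
    finsum_mem_eq_finite_toFinset_sum _ (Set.toFinite B)]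
  obtain ⟨S, hS⟩ : ∃ S, S = (Set.toFinite B).toFinset := ⟨_, rfl⟩
  rw [← hS]
  have hmem : ∀ ψ, ψ ∈ S ↔ ψ ∈ B := fun ψ => by rw [hS]; exact Set.Finite.mem_toFinset _
  have hinj : Set.InjOn τ (S : Set (IrrCharacter G)) := by
    intro χ hχ χ' hχ' h
    apply Subtype.ext
    funext x
    obtain ⟨y, rfl⟩ := (powCoprime hk.symm).surjective x
    simp only [powCoprime_apply]
    rw [← hτ χ ((hmem χ).mp hχ), ← hτ χ' ((hmem χ').mp hχ'), h]
  have himg : S.image τ = S := by
    apply Finset.eq_of_subset_of_card_le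
    · intro ψ hψ
      obtain ⟨χ, hχ, rfl⟩ := Finset.mem_image.mp hψ
      exact (hmem _).mpr (hτB χ ((hmem χ).mp hχ))
    · rw [Finset.card_image_of_injOn hinj]
  conv_rhs => rw [← himg]
  rw [Finset.sum_image hinj]
  apply Finset.sum_congr rfl
  intro χ hχ
  rw [hτ χ ((hmem χ).mp hχ), hτ χ ((hmem χ).mp hχ), one_pow]

theorem stable_full_defect_principal {M : Ideal AlgInt} (hM : IsPModular 2 M) (k : ℕ)
    (hk : Nat.Coprime k (Nat.card G)) (hk₂ : ∀ g : G, Odd (orderOf g) → g ^ k = g⁻¹)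
    (B : Set (IrrCharacter G)) (hB : IsPBlock M B)
    (hdef : blockDefect 2 B = (Nat.card G).factorization 2)
    (hstab : ∀ χ ∈ B, ∃ ψ ∈ B, ∀ g : G, (ψ : G → ℂ) g = (χ : G → ℂ) (g ^ k)) :
    B = principalBlock M G := by
  classical
  haveI := hM.2.1.isPrime
  haveI : Fact (Nat.Prime 2) := ⟨Nat.prime_two⟩
  have hinv : ∀ g : G, ¬ 2 ∣ orderOf g → g ^ k = g⁻¹ := fun g hg =>
    hk₂ g (Nat.not_even_iff_odd.mp (fun h => hg (even_iff_two_dvd.mp h)))
  have ha : ∀ g : G, ¬ 2 ∣ orderOf g → blockCoeff B g⁻¹ = blockCoeff B g := by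
    intro g hg
    rw [← hinv g hg]
    exact blockCoeff_pow k hk hstab g
  have haR : ∀ g, blockCoeff B g ∈ Rloc M := blockCoeff_mem_Rloc B (block_closed hB)
  have haS : ∀ g : G, 2 ∣ orderOf g → blockCoeff B g = 0 :=
    blockCoeff_eq_zero hM B (block_closed hB)
  have h2I : (2 : ℂ) ∈ Iloc M := by
    have := (natCast_mem_Iloc_iff hM 2).mpr dvd_rfl
    exact_mod_cast this
  obtain ⟨χ, hχ, h0⟩ := exists_height_zero (p := 2) (block_nonempty hB)
  have hodd : ¬ 2 ∣ charDegree (χ : G → ℂ) := by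
    have h1 : sInf ((fun χ : IrrCharacter G => (charDegree (χ : G → ℂ)).factorization 2) '' B) ≤
        (charDegree (χ : G → ℂ)).factorization 2 := Nat.sInf_le (Set.mem_image_of_mem _ hχ)
    have h2 : (charDegree (χ : G → ℂ)).factorization 2 ≤ (Nat.card G).factorization 2 :=
      (Nat.factorization_le_iff_dvd (charDegree_pos χ.2).ne' Nat.card_pos.ne').mpr
        (charDegree_dvd_card χ.2) 2
    unfold blockHeight at h0
    unfold blockDefect at hdef
    have h3 : (charDegree (χ : G → ℂ)).factorization 2 = 0 := by omega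
    intro h4
    rcases (Nat.factorization_eq_zero_iff _ _).mp h3 with h5 | h5 | h5
    · exact h5 Nat.prime_two
    · exact h5 h4
    · exact (charDegree_pos χ.2).ne' h5
  have hχc := IsIrrCharacter.isClassFunction χ.2
  have hχR : ∀ (ψ : IrrCharacter G) (g : G), (ψ : G → ℂ) g ∈ Rloc M := fun ψ g =>
    integral_mem_Rloc (Cfsg.Agent.Lib.Helper7.BCount2.irr_isIntegral ψ.2 g)
  have hdc : ((charDegree (χ : G → ℂ) : ℕ) : ℂ) = (χ : G → ℂ) 1 :=
    charDegree_cast (IsIrrCharacter.isCharacter χ.2)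
  -- first application
  have P1 := sum_sub_one_mem hM (fun g => blockCoeff B g * (χ : G → ℂ) g)
    (fun g h => by simp only [blockCoeff_isClass B g h, hχc g h])
    (fun g => (Rloc M).mul_mem (haR g) (hχR χ g))
    (fun g hg => by simp only [haS g hg, zero_mul])
    (by
      intro g hg hi
      obtain ⟨ψ, hψ, hψv⟩ := hstab χ hχ
      simp only [ha g hg]
      rw [← hinv g hg, ← hψv g, ← mul_add]
      apply mul_mem_Iloc (haR g)
      have h1 := sameBlock_of_mem hB hχ hψ g
      unfold centralChar at h1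
      have hψ1 : (ψ : G → ℂ) 1 = (χ : G → ℂ) 1 := by rw [hψv, one_pow]
      rw [hψ1, ← hdc] at h1
      have h2 : ((Subgroup.centralizer ({g} : Set G)).index : ℂ)⁻¹ *
          ((charDegree (χ : G → ℂ) : ℕ) : ℂ) ∈ Rloc M :=
        (Rloc M).mul_mem (natCast_inv_mem_Rloc hM hi) (natCast_mem_Rloc _)
      have h3 := mul_mem_Iloc h2 h1
      have hne1 : ((Subgroup.centralizer ({g} : Set G)).index : ℂ) ≠ 0 :=
        Nat.cast_ne_zero.mpr Subgroup.index_ne_zero_of_finite
      have hne2 : ((charDegree (χ : G → ℂ) : ℕ) : ℂ) ≠ 0 :=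
        Nat.cast_ne_zero.mpr (charDegree_pos χ.2).ne'
      have h4 : ((Subgroup.centralizer ({g} : Set G)).index : ℂ)⁻¹ *
          ((charDegree (χ : G → ℂ) : ℕ) : ℂ) *
          (((Subgroup.centralizer ({g} : Set G)).index : ℂ) * (χ : G → ℂ) g /
            ((charDegree (χ : G → ℂ) : ℕ) : ℂ) -
          ((Subgroup.centralizer ({g} : Set G)).index : ℂ) * (ψ : G → ℂ) g /
            ((charDegree (χ : G → ℂ) : ℕ) : ℂ)) = (χ : G → ℂ) g - (ψ : G → ℂ) g := by
        field_simp
      rw [h4] at h3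
      have h5 := (Iloc M).add_mem h3 (mul_mem_Iloc' h2I (hχR ψ g))
      have h6 : (χ : G → ℂ) g - (ψ : G → ℂ) g + 2 * (ψ : G → ℂ) g =
          (χ : G → ℂ) g + (ψ : G → ℂ) g := by ring
      rwa [h6] at h5)
  have P2 := sum_sub_one_mem hM (blockCoeff B) (blockCoeff_isClass B) haR haS
    (by
      intro g hg _
      rw [ha g hg, ← two_mul]
      exact mul_mem_Iloc' h2I (haR g))
  have hW := W_blockCoeff B χ
  rw [if_pos hχ, W, div_eq_one_iff_eq (irr_one_ne_zero χ.2)] at hW
  rw [hW] at P1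
  have h7 : 1 - blockCoeff B 1 ∈ Iloc M := by
    have h8 := mul_mem_Iloc' P1 (natCast_inv_mem_Rloc hM hodd)
    rw [hdc] at h8
    have h9 : ((χ : G → ℂ) 1 - blockCoeff B 1 * (χ : G → ℂ) 1) * ((χ : G → ℂ) 1)⁻¹ =
        1 - blockCoeff B 1 := by
      have := irr_one_ne_zero χ.2
      field_simp
    rwa [h9] at h8
  have hone : one G ∈ B := by
    by_contra hn
    have hW1 := W_blockCoeff B (one G)
    rw [if_neg hn, W] at hW1
    have e1 : ((one G : IrrCharacter G) : G → ℂ) = fun _ => 1 := rfl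
    simp only [e1, mul_one, div_one] at hW1
    rw [hW1, zero_sub] at P2
    have := (Iloc M).sub_mem h7 P2
    rw [sub_neg_eq_add, sub_add_cancel] at this
    exact one_notMem_Iloc this
  exact block_eq_of_mem hB (principal_isPBlock M) hone (one_mem_principal M)

end Cfsg.Agent.Lib.Helper7.BReal1
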