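import Mathlib
import Cfsg.Prelude.Def_Blocks
import Cfsg.Agent.Lib.Helper7.BCount1
import Cfsg.Agent.Lib.Helper7.BSub1
import Cfsg.Agent.Lib.Helper7.BCount2
import Cfsg.Agent.Lib.Helper7.CharGallagher2
import Cfsg.Agent.Lib.Helper7.CharLinear

set_option autoImplicit false
set_option linter.unusedSectionVars false
set_option linter.unusedVariables false
set_option linter.style.haveILetI false

/-! Characters of odd degree, real on odd order elements, lie in the principal 2-block. -/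

namespace Cfsg.Agent.Lib.Helper7.BReal2

open Cfsg Cfsg.Agent.Lib.Helper7.CharIrr Cfsg.Agent.Lib.Helper7.CharOrth
  Cfsg.Agent.Lib.Helper7.CharIntegral Cfsg.Agent.Lib.Helper7.CharMore
  Cfsg.Agent.Lib.Helper7.CharClassAlg Cfsg.Agent.Lib.Helper7.CharComplete
  Cfsg.Agent.Lib.Helper7.CharDeg Cfsg.Agent.Lib.Helper7.CharGalois
  Cfsg.Agent.Lib.Helper7.CharClassAlg2 Cfsg.Agent.Lib.Helper7.CharInd
  Cfsg.Agent.Lib.Helper7.CharBasic Cfsg.Agent.Lib.Helper7.CharGen Cfsg.Agent.Lib.Helper7.CharRes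
  Cfsg.Agent.Lib.Helper7.Brauer11 Cfsg.Agent.Lib.Helper7.Brauer12
  Cfsg.Agent.Lib.Helper2.LocRing Cfsg.Agent.Lib.Helper2.BlockLam
  Cfsg.Agent.Lib.Helper2.BlockZ Cfsg.Agent.Lib.Helper2.BlockDef Cfsg.Agent.Lib.Helper2.BlockCong
  Cfsg.Agent.Lib.Helper2.BlockHt Cfsg.Agent.Lib.Helper2.BlockReg Cfsg.Agent.Lib.Helper2.BlockBr2
  Cfsg.Agent.Lib.Helper2.BlockSub Cfsg.Agent.Lib.Helper2.BlockReg2 Cfsg.Agent.Lib.Helper2.BlockReg3
  Cfsg.Agent.Lib.Helper7.BPair2 Cfsg.Agent.Lib.Helper7.BSub1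
open scoped ComplexConjugate

variable {G : Type*} [Group G] [Fintype G]


open Cfsg.Agent.Lib.Helper7.BCount2 Cfsg.Agent.Lib.Helper7.CharGallagher2
  Cfsg.Agent.Lib.Helper7.CharLinear

theorem real_reg_odd_mem_principal {M : Ideal AlgInt} (hM : IsPModular 2 M) (θ : IrrCharacter G)
    (hreal : ∀ g : G, ¬ 2 ∣ orderOf g → (θ : G → ℂ) g⁻¹ = (θ : G → ℂ) g) (hodd : Odd (charDegree (θ : G → ℂ))) :
    θ ∈ principalBlock M G := by
  classical
  haveI := hM.2.1.isPrime
  obtain ⟨S, hS⟩ : ∃ S : Finset G, S = Finset.univ.filter (fun g : G => ¬ 2 ∣ orderOf g ∧ g ≠ 1) :=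
    ⟨_, rfl⟩
  have hv : ∀ g, IsIntegral ℤ ((θ : G → ℂ) g) := irr_isIntegral θ.2
  obtain ⟨v, hvdef⟩ : ∃ v : G → AlgInt, ∀ g, v g = ⟨(θ : G → ℂ) g, hv g⟩ := ⟨_, fun _ => rfl⟩
  have hinv : ∀ g, ¬ 2 ∣ orderOf g → v g⁻¹ = v g := by
    intro g hg
    rw [hvdef, hvdef]
    apply Subtype.ext
    exact hreal g hg
  have h2M : (2 : AlgInt) ∈ M := by
    have := hM.2.2
    exact_mod_cast this
  have hsum : ∑ g ∈ S, Ideal.Quotient.mk M (v g) = 0 := by
    apply Finset.sum_involution (fun g _ => g⁻¹)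
    · intro g hg
      rw [hS, Finset.mem_filter] at hg
      rw [hinv g hg.2.1, ← map_add, ← two_mul, Ideal.Quotient.eq_zero_iff_mem]
      exact M.mul_mem_right _ h2M
    · intro g hg _ h
      rw [hS, Finset.mem_filter] at hg
      have h1 : g ^ 2 = 1 := by
        rw [pow_two]
        nth_rewrite 1 [← h]
        exact inv_mul_cancel g
      have h2 := orderOf_dvd_of_pow_eq_one h1
      rcases (Nat.dvd_prime Nat.prime_two).mp h2 with h3 | h3
      · exact hg.2.2 (orderOf_eq_one_iff.mp h3)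
      · exact hg.2.1 (by rw [h3])
    · intro g _
      exact inv_inv g
    · intro g hg
      rw [hS, Finset.mem_filter] at hg ⊢
      refine ⟨Finset.mem_univ _, ?_, inv_ne_one.mpr hg.2.2⟩
      rw [orderOf_inv]
      exact hg.2.1
  have hmem : ∑ g ∈ S, v g ∈ M := by
    rw [← Ideal.Quotient.eq_zero_iff_mem, map_sum]
    exact hsum
  have hs : ∑ g ∈ S, (θ : G → ℂ) g ∈ Iloc M := by
    refine ⟨∑ g ∈ S, v g, 1, hmem, fun h => this.ne_top ((Ideal.eq_top_iff_one M).mpr h), ?_⟩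
    rw [AddSubmonoidClass.coe_finset_sum]
    simp only [OneMemClass.coe_one, div_one]
    apply Finset.sum_congr rfl
    intro g _
    rw [hvdef]
  have hW : W (θ : G → ℂ) (creg 2 (fun _ : G => (1 : ℂ))) =
      1 + (∑ g ∈ S, (θ : G → ℂ) g) * ((charDegree (θ : G → ℂ) : ℕ) : ℂ)⁻¹ := by
    have h1 : (θ : G → ℂ) 1 ≠ 0 := irr_one_ne_zero θ.2
    rw [charDegree_cast (IsIrrCharacter.isCharacter θ.2)]
    unfold W
    have e1 : ∑ g, creg 2 (fun _ : G => (1 : ℂ)) g * (θ : G → ℂ) g =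
        (θ : G → ℂ) 1 + ∑ g ∈ S, (θ : G → ℂ) g := by
      have pt : ∀ g : G, creg 2 (fun _ : G => (1 : ℂ)) g * (θ : G → ℂ) g =
          (if g = 1 then (θ : G → ℂ) 1 else 0) +
            (if ¬ 2 ∣ orderOf g ∧ g ≠ 1 then (θ : G → ℂ) g else 0) := by
        intro g
        by_cases hg : g = 1
        · subst hg
          rw [creg_reg _ (by simp)]
          simp
        · by_cases h2 : 2 ∣ orderOf g
          · rw [creg_sing _ h2]
            simp [hg, h2]
          · rw [creg_reg _ h2]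
            simp [hg, h2]
      rw [Finset.sum_congr rfl (fun g _ => pt g), Finset.sum_add_distrib, hS, Finset.sum_filter]
      simp
    rw [e1]
    field_simp
  have hd : ¬ 2 ∣ charDegree (θ : G → ℂ) := by
    intro h
    exact (Nat.not_even_iff_odd.mpr hodd) (even_iff_two_dvd.mpr h)
  have key : W (θ : G → ℂ) (creg 2 (fun _ : G => (1 : ℂ))) ∉ Iloc M := by
    intro h
    rw [hW] at h
    have h1 := mul_mem_Iloc' hs (natCast_inv_mem_Rloc hM hd)
    have h2 := (Iloc M).sub_mem h h1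
    rw [add_sub_cancel_right] at h2
    exact one_notMem_Iloc h2
  have h3 := sameBlock_of_W_creg hM (one G) θ key
  exact sameBlock_symm (M := M) h3


theorem exists_ext_principal (N : Subgroup G) [N.Normal] {M : Ideal AlgInt} (hM : IsPModular 2 M)
    (θ : IrrCharacter N) (hreal : ∀ n : N, ((θ : N → ℂ) n).im = 0)
    (hodd : Odd (charDegree (θ : N → ℂ)))
    (hext : ∃ η : IrrCharacter G, ∀ n : N, (η : G → ℂ) n = (θ : N → ℂ) n) :
    ∃ η : IrrCharacter G, (∀ n : N, (η : G → ℂ) n = (θ : N → ℂ) n) ∧ η ∈ principalBlock M G := by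
  classical
  haveI := Fintype.ofFinite N
  obtain ⟨χ, hχ⟩ := hext
  have hχN : (fun n : N => (χ : G → ℂ) n) = (θ : N → ℂ) := funext hχ
  have hirrN : IsIrrCharacter N (fun n : N => (χ : G → ℂ) n) := by rw [hχN]; exact θ.2
  obtain ⟨g1, -, g3⟩ := gallagher N χ.2 hirrN
  have hψ := isIrrCharacter_conj χ.2
  obtain ⟨β, hβ, hβk, hβχ⟩ := g3 _ hψ (by
    have e : (fun n : N => conj ((χ : G → ℂ) n)) = (θ : N → ℂ) := by
      funext n
      rw [hχ n]
      exact Complex.conj_eq_iff_im.mpr (hreal n)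
    rw [e, hχN, classInner_irr θ.2 θ.2, if_pos rfl]
    exact one_ne_zero)
  have hχ1 := irr_one_ne_zero χ.2
  have hβ1 : β 1 = 1 := by
    have h1 := congrFun hβχ 1
    simp only [Pi.mul_apply] at h1
    rw [irr_conj_eq_inv χ.2, inv_one] at h1
    exact mul_right_cancel₀ hχ1 (h1.trans (one_mul _).symm)
  obtain ⟨l, hl⟩ := exists_hom_of_irr_of_one (IsIrrCharacter.isCharacter hβ) hβ1
  obtain ⟨a, m, hm, hcard⟩ := Nat.exists_eq_two_pow_mul_odd (n := Nat.card G) Nat.card_pos.ne'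
  obtain ⟨t, ht⟩ := hm
  have hlN : ∀ n ∈ N, l n = 1 := by
    intro n hn
    have h1 := hβk n hn
    rw [hβ1, hl] at h1
    exact Units.ext h1
  have hlam := isIrrCharacter_of_hom (l ^ (t + 1))
  have hη := g1 _ hlam (by
    intro n hn
    simp only [MonoidHom.pow_apply, hlN n hn, map_one, one_pow])
  refine ⟨⟨_, hη⟩, ?_, ?_⟩
  · intro n
    simp only [Pi.mul_apply, MonoidHom.pow_apply, hlN n n.2, one_pow, Units.val_one, one_mul]
    exact hχ n
  · apply real_reg_odd_mem_principal hM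
    · intro g hg
      change ((l ^ (t + 1)) g⁻¹ : ℂ) * (χ : G → ℂ) g⁻¹ = ((l ^ (t + 1)) g : ℂ) * (χ : G → ℂ) g
      have h1 : (χ : G → ℂ) g⁻¹ = (l g : ℂ) * (χ : G → ℂ) g := by
        rw [← irr_conj_eq_inv χ.2]
        have h2 := congrFun hβχ g
        simp only [Pi.mul_apply] at h2
        rw [← h2, hl]
      have hgm : g ^ m = 1 := by
        apply orderOf_dvd_iff_pow_eq_one.mp
        have h3 : orderOf g ∣ 2 ^ a * m := by rw [← hcard]; exact orderOf_dvd_natCard g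
        apply Nat.Coprime.dvd_of_dvd_mul_left _ h3
        apply Nat.Coprime.pow_right
        exact ((Nat.Prime.coprime_iff_not_dvd Nat.prime_two).mpr hg).symm
      have hlm : (l g) ^ m = 1 := by rw [← map_pow, hgm, map_one]
      have h4 : (l ^ (t + 1)) g⁻¹ * l g = (l ^ (t + 1)) g := by
        simp only [MonoidHom.pow_apply, map_inv]
        rw [inv_mul_eq_iff_eq_mul, ← pow_add]
        have : t + 1 + (t + 1) = m + 1 := by omega
        rw [this, pow_succ, hlm, one_mul]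
      rw [h1, ← mul_assoc, ← Units.val_mul, h4]
    · have e : charDegree (((fun g => (((l ^ (t + 1)) g : ℂˣ) : ℂ)) * (χ : G → ℂ))) =
          charDegree (θ : N → ℂ) := by
        unfold charDegree
        simp only [Pi.mul_apply, map_one, Units.val_one, one_mul]
        rw [← hχ 1]
        rfl
      change Odd (charDegree (((fun g => (((l ^ (t + 1)) g : ℂˣ) : ℂ)) * (χ : G → ℂ))))
      rw [e]
      exact hodd

end Cfsg.Agent.Lib.Helper7.BReal2
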