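import Mathlib
import Cfsg.Prelude.Def_Blocks
import Cfsg.Agent.Lib.Helper7.BCount1
import Cfsg.Agent.Lib.Helper7.BSub1
import Cfsg.Agent.Lib.Helper7.BCount2
import Cfsg.Agent.Lib.Helper7.CharGallagher2
import Cfsg.Agent.Lib.Helper7.CharLinear
import Cfsg.Agent.Lib.Helper2.BlockCov2
import Cfsg.Agent.Lib.Helper2.BlockKul

set_option autoImplicit false
set_option linter.unusedSectionVars false
set_option linter.unusedVariables false
set_option linter.style.haveILetI false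

/-! Principal 2-blocks and normal subgroups of odd index. -/

namespace Cfsg.Agent.Lib.Helper7.BReal3

open Cfsg Cfsg.Agent.Lib.Helper7.CharIrr Cfsg.Agent.Lib.Helper7.CharOrth
  Cfsg.Agent.Lib.Helper7.CharIntegral Cfsg.Agent.Lib.Helper7.CharMore
  Cfsg.Agent.Lib.Helper7.CharClassAlg Cfsg.Agent.Lib.Helper7.CharComplete
  Cfsg.Agent.Lib.Helper7.CharDeg Cfsg.Agent.Lib.Helper7.CharGalois
  Cfsg.Agent.Lib.Helper7.CharClassAlg2 Cfsg.Agent.Lib.Helper7.CharInd
  Cfsg.Agent.Lib.Helper7.CharBasic Cfsg.Agent.Lib.Helper7.CharGen Cfsg.Agent.Lib.Helper7.CharRes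
  Cfsg.Agent.Lib.Helper7.Brauer11 Cfsg.Agent.Lib.Helper7.Brauer12
  Cfsg.Agent.Lib.Helper2.LocRing Cfsg.Agent.Lib.Helper2.BlockLam
  Cfsg.Agent.Lib.Helper2.BlockZ Cfsg.Agent.Lib.Helper2.BlockDef Cfsg.Agent.Lib.Helper2.BlockCong
  Cfsg.Agent.Lib.Helper2.BlockHt Cfsg.Agent.Lib.Helper2.BlockReg Cfsg.Agent.Lib.Helper2.BlockBr2
  Cfsg.Agent.Lib.Helper2.BlockSub Cfsg.Agent.Lib.Helper2.BlockReg2 Cfsg.Agent.Lib.Helper2.BlockReg3
  Cfsg.Agent.Lib.Helper7.BPair2 Cfsg.Agent.Lib.Helper7.BSub1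
open scoped ComplexConjugate

variable {G : Type*} [Group G] [Fintype G]


open Cfsg.Agent.Lib.Helper7.BCount2 Cfsg.Agent.Lib.Helper7.CharGallagher2
  Cfsg.Agent.Lib.Helper7.CharLinear


open Cfsg.Agent.Lib.Helper2.BlockCov Cfsg.Agent.Lib.Helper2.BlockCov2 Cfsg.Agent.Lib.Helper2.BlockKul

theorem eq_one_of_conj_inv {Q : Type*} [Group Q] [Finite Q] (hQ : Odd (Nat.card Q)) {x t : Q}
    (h : t * x * t⁻¹ = x⁻¹) : x = 1 := by
  obtain ⟨s, hs⟩ := hQ
  have h1 : t * x = x⁻¹ * t := by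
    rw [← h]; group
  have h2 : t * x⁻¹ = x * t := by
    have h0 : x * t * x = t := by rw [mul_assoc, h1, mul_inv_cancel_left]
    calc t * x⁻¹ = (x * t * x) * x⁻¹ := by rw [h0]
      _ = x * t := by rw [mul_inv_cancel_right]
  have h3 : Commute (t ^ 2) x := by
    change t ^ 2 * x = x * t ^ 2
    rw [pow_two, mul_assoc, h1, ← mul_assoc, h2, mul_assoc]
  have h4 : (t ^ 2) ^ (s + 1) = t := by
    rw [← pow_mul]
    have : 2 * (s + 1) = Nat.card Q + 1 := by omega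
    rw [this, pow_succ, pow_card_eq_one', one_mul]
  have h5 : Commute t x := by
    have := h3.pow_left (s + 1)
    rwa [h4] at this
  have h6 : x = x⁻¹ := by
    rw [← h, h5.eq]; group
  have h7 : x ^ 2 = 1 := by
    rw [pow_two]
    nth_rewrite 1 [h6]
    exact inv_mul_cancel x
  have h8 : x ^ (Nat.card Q) = 1 := pow_card_eq_one'
  rw [hs, pow_succ, pow_mul, h7, one_pow, one_mul] at h8
  exact h8

theorem mem_of_isConj_inv (N : Subgroup G) [N.Normal] (hidx : Odd N.index) {g : G}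
    (h : IsConj g g⁻¹) : g ∈ N := by
  obtain ⟨t, ht⟩ := isConj_iff.mp h
  rw [← QuotientGroup.eq_one_iff]
  apply eq_one_of_conj_inv (Q := G ⧸ N) hidx (t := (t : G ⧸ N))
  rw [← QuotientGroup.mk_inv, ← QuotientGroup.mk_mul, ← QuotientGroup.mk_mul, ht,
    QuotientGroup.mk_inv]

theorem W_outside_mem {M : Ideal AlgInt} [M.IsPrime] (hM : IsPModular 2 M) (N : Subgroup G)
    [hN : N.Normal] (hidx : Odd N.index) (χ : IrrCharacter G)
    (hreal : ∀ g : G, ¬ 2 ∣ orderOf g → (χ : G → ℂ) g⁻¹ = (χ : G → ℂ) g) (A : G → ℂ)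
    (hAp : ∀ g, g ∉ N ∧ ¬ 2 ∣ orderOf g → A g = 1)
    (hAn : ∀ g, ¬ (g ∉ N ∧ ¬ 2 ∣ orderOf g) → A g = 0) :
    W (χ : G → ℂ) A ∈ Iloc M := by
  classical
  haveI := Fintype.ofFinite (ConjClasses G)
  obtain ⟨idx, hidxdef⟩ : ∃ idx : G → ℕ, ∀ g,
      idx g = (Fintype.equivFin (ConjClasses G) (ConjClasses.mk g) : ℕ) := ⟨_, fun _ => rfl⟩
  have hidx_conj : ∀ g h : G, idx (h * g * h⁻¹) = idx g := by
    intro g h
    rw [hidxdef, hidxdef]
    have h1 : IsConj g (h * g * h⁻¹) := isConj_iff.mpr ⟨h, rfl⟩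
    rw [ConjClasses.mk_eq_mk_iff_isConj.mpr h1]
  have hidx_ne : ∀ g : G, g ∉ N → idx g ≠ idx g⁻¹ := by
    intro g hg h
    rw [hidxdef, hidxdef] at h
    have h1 := (Fintype.equivFin (ConjClasses G)).injective (Fin.ext h)
    exact hg (mem_of_isConj_inv N hidx (ConjClasses.mk_eq_mk_iff_isConj.mp h1))
  obtain ⟨A1, hA1⟩ : ∃ A1 : G → ℂ, A1 = fun g =>
      if (g ∉ N ∧ ¬ 2 ∣ orderOf g) ∧ idx g < idx g⁻¹ then 1 else 0 := ⟨_, rfl⟩
  have hA1cl : IsClassFunction G A1 := by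
    intro g h
    rw [hA1]
    have e1 : (h * g * h⁻¹)⁻¹ = h * g⁻¹ * h⁻¹ := by group
    have e2 : h * g * h⁻¹ ∈ N ↔ g ∈ N := by
      constructor
      · intro hm
        have := hN.conj_mem _ hm h⁻¹
        simpa [mul_assoc] using this
      · intro hm
        exact hN.conj_mem _ hm h
    simp only [e1, hidx_conj, e2, orderOf_conj']
  have hA1R : ∀ g, A1 g ∈ Rloc M := by
    intro g
    rw [hA1]
    simp only
    split_ifs
    · exact Subring.one_mem _
    · exact Subring.zero_mem _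
  have hA1p : ∀ g, (g ∉ N ∧ ¬ 2 ∣ orderOf g) ∧ idx g < idx g⁻¹ → A1 g = 1 := by
    intro g hg
    rw [hA1]
    exact if_pos hg
  have hA1n : ∀ g, ¬ ((g ∉ N ∧ ¬ 2 ∣ orderOf g) ∧ idx g < idx g⁻¹) → A1 g = 0 := by
    intro g hg
    rw [hA1]
    exact if_neg hg
  have key : W (χ : G → ℂ) A = 2 * W (χ : G → ℂ) A1 := by
    unfold W
    rw [← mul_div_assoc]
    congr 1
    have e3 : ∑ g, A1 g * (χ : G → ℂ) g = ∑ g, A1 g⁻¹ * (χ : G → ℂ) g⁻¹ :=
      (Equiv.sum_comp (Equiv.inv G) (fun g => A1 g * (χ : G → ℂ) g)).symm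
    rw [two_mul]
    nth_rewrite 2 [e3]
    rw [← Finset.sum_add_distrib]
    apply Finset.sum_congr rfl
    intro g _
    by_cases hg : g ∉ N ∧ ¬ 2 ∣ orderOf g
    · have hne := hidx_ne g hg.1
      have hg' : g⁻¹ ∉ N ∧ ¬ 2 ∣ orderOf g⁻¹ := by
        rw [inv_mem_iff, orderOf_inv]
        exact hg
      rw [hreal g hg.2, hAp g hg]
      rcases lt_or_gt_of_ne hne with hlt | hlt
      · rw [hA1p g ⟨hg, hlt⟩, hA1n g⁻¹ (by
          rintro ⟨-, h⟩
          rw [inv_inv] at h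
          exact absurd h (not_lt.mpr hlt.le))]
        ring
      · rw [hA1n g (by
          rintro ⟨-, h⟩
          exact absurd h (not_lt.mpr hlt.le)), hA1p g⁻¹ ⟨hg', by rw [inv_inv]; exact hlt⟩]
        ring
    · have hg' : ¬ (g⁻¹ ∉ N ∧ ¬ 2 ∣ orderOf g⁻¹) := by
        rw [inv_mem_iff, orderOf_inv]
        exact hg
      rw [hAn g hg, hA1n g (fun h => hg h.1), hA1n g⁻¹ (fun h => hg' h.1)]
      ring
  rw [key]
  have h2I : (2 : ℂ) ∈ Iloc M := by
    have := (natCast_mem_Iloc_iff hM 2).mpr dvd_rfl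
    exact_mod_cast this
  exact mul_mem_Iloc' h2I (W_mem_Rloc χ hA1cl hA1R)

theorem mem_principal_of_over {M : Ideal AlgInt} (hM : IsPModular 2 M) (N : Subgroup G)
    [hN : N.Normal] [Fintype N] (hidx : Odd N.index) (χ : IrrCharacter G)
    (hreal : ∀ g : G, ¬ 2 ∣ orderOf g → (χ : G → ℂ) g⁻¹ = (χ : G → ℂ) g) (θ : IrrCharacter N)
    (hover : classInner (fun n : N => (χ : G → ℂ) n) (θ : N → ℂ) ≠ 0)
    (hθ : θ ∈ principalBlock M N) : χ ∈ principalBlock M G := by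
  classical
  haveI := hM.2.1.isPrime
  haveI : Fact (Nat.Prime 2) := ⟨Nat.prime_two⟩
  have hout := W_outside_mem hM N hidx χ hreal
    (fun g => if g ∉ N ∧ ¬ 2 ∣ orderOf g then 1 else 0) (fun g hg => if_pos hg)
    (fun g hg => if_neg hg)
  obtain ⟨A0, hA0⟩ : ∃ A0 : G → ℂ, A0 = fun g => if g ∈ N ∧ ¬ 2 ∣ orderOf g then 1 else 0 :=
    ⟨_, rfl⟩
  have hA0cl : IsClassFunction G A0 := by
    intro g h
    rw [hA0]
    have e2 : h * g * h⁻¹ ∈ N ↔ g ∈ N := by
      constructor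
      · intro hm
        have := hN.conj_mem _ hm h⁻¹
        simpa [mul_assoc] using this
      · intro hm
        exact hN.conj_mem _ hm h
    simp only [e2, orderOf_conj']
  have hsplit : creg 2 (fun _ : G => (1 : ℂ)) =
      A0 + fun g => if g ∉ N ∧ ¬ 2 ∣ orderOf g then 1 else 0 := by
    funext g
    rw [hA0]
    simp only [Pi.add_apply]
    by_cases h2 : 2 ∣ orderOf g
    · rw [creg_sing _ h2]
      simp [h2]
    · rw [creg_reg _ h2]
      by_cases hg : g ∈ N <;> simp [h2, hg]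
  have hW0 : W (χ : G → ℂ) A0 = W (θ : N → ℂ) (creg 2 (fun _ : N => (1 : ℂ))) := by
    rw [W_eq_of_constituent N hover hA0cl (by
      intro g hg
      rw [hA0]
      simp [hg])]
    congr 1
    funext n
    rw [hA0]
    have ho : orderOf (n : G) = orderOf n := Subgroup.orderOf_coe n
    by_cases h2 : 2 ∣ orderOf n
    · rw [creg_sing _ h2]
      exact if_neg (fun h => h.2 (by rw [ho]; exact h2))
    · rw [creg_reg _ h2, map_one]
      exact if_pos ⟨n.2, by rw [ho]; exact h2⟩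
  have h1N : W ((one N : IrrCharacter N) : N → ℂ) (creg 2 ((one N : IrrCharacter N) : N → ℂ)) ∉
      Iloc M := W_creg_notMem_of_height_zero hM (one N) (height_one 2 _)
  have h2N := W_sub_mem_Iloc (M := M) (χ := one N) (ψ := θ) hθ
    (creg_isClass 2 (IsIrrCharacter.isClassFunction (one N).2)) (creg_mem_Rloc 2 (one N).2)
  have h3N : W (θ : N → ℂ) (creg 2 ((one N : IrrCharacter N) : N → ℂ)) ∉ Iloc M :=
    notMem_of_sub_mem h2N h1N
  have key : W (χ : G → ℂ) (creg 2 ((one G : IrrCharacter G) : G → ℂ)) ∉ Iloc M := by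
    intro h
    apply h3N
    change W (χ : G → ℂ) (creg 2 (fun _ : G => (1 : ℂ))) ∈ Iloc M at h
    rw [hsplit, W_add, hW0] at h
    have := (Iloc M).sub_mem h hout
    rwa [add_sub_cancel_right] at this
  exact sameBlock_symm (M := M) (sameBlock_of_W_creg hM (one G) χ key)

theorem mem_principal_of_under {M : Ideal AlgInt} {p : ℕ} [Fact p.Prime] (hM : IsPModular p M)
    (N : Subgroup G) [hN : N.Normal] [Fintype N] (χ : IrrCharacter G) (θ : IrrCharacter N)
    (hover : classInner (fun n : N => (χ : G → ℂ) n) (θ : N → ℂ) ≠ 0)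
    (hχ : χ ∈ principalBlock M G) : θ ∈ principalBlock M N := by
  classical
  haveI := hM.2.1.isPrime
  obtain ⟨g, θ', hθ', rfl⟩ := mem_orb_of_sameBlock N (principal_isPBlock (G := N) M)
    (sameBlock_of_mem (principal_isPBlock (G := G) M) (one_mem_principal M) hχ)
    (one_mem_principal (G := N) M) (θ := one N) (χ := one G) (by
      have := classInner_irr (one N).2 (one N).2
      rw [if_pos rfl] at this
      change classInner ((one N : IrrCharacter N) : N → ℂ) ((one N : IrrCharacter N) : N → ℂ) ≠ 0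
      rw [this]
      exact one_ne_zero) hover
  exact sameBlock_cj N (θ := one N) hθ' g

end Cfsg.Agent.Lib.Helper7.BReal3
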