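import Mathlib
import Cfsg.Prelude.Def_Characters
import Cfsg.Agent.Lib.Helper7.All1
import Cfsg.Agent.Lib.Helper7.CharKer
import Cfsg.Agent.Lib.Helper7.CharDeg

set_option autoImplicit false
set_option linter.style.haveILetI false
set_option linter.unusedSectionVars false
set_option linter.unusedVariables false
set_option linter.unusedSimpArgs false

namespace Cfsg.Agent.Lib.Helper7.CharCod

open Module Representation Cfsg
open Cfsg.Agent.Lib.Helper7.CharBasic Cfsg.Agent.Lib.Helper7.CharIrr Cfsg.Agent.Lib.Helper7.CharDecomp Cfsg.Agent.Lib.Helper7.CharComplete Cfsg.Agent.Lib.Helper7.CharOrth Cfsg.Agent.Lib.Helper7.CharInd Cfsg.Agent.Lib.Helper7.CharIntegral Cfsg.Agent.Lib.Helper7.CharBurnside Cfsg.Agent.Lib.Helper7.CharLinear Cfsg.Agent.Lib.Helper7.CharEquiv Cfsg.Agent.Lib.Helper7.CharMore Cfsg.Agent.Lib.Helper7.CharCount Cfsg.Agent.Lib.Helper7.CharMisc Cfsg.Agent.Lib.Helper7.CharMisc2 Cfsg.Agent.Lib.Helper7.CharNormal Cfsg.Agent.Lib.Helper7.CharOdd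 Cfsg.Agent.Lib.Helper7.CharClifford Cfsg.Agent.Lib.Helper7.CharProd Cfsg.Agent.Lib.Helper7.CharPerm Cfsg.Agent.Lib.Helper7.CharClassAlg Cfsg.Agent.Lib.Helper7.CharClassAlg2 Cfsg.Agent.Lib.Helper7.CharCentral Cfsg.Agent.Lib.Helper7.CharNormal2 Cfsg.Agent.Lib.Helper7.CharCliffordCorr Cfsg.Agent.Lib.Helper7.CharKer Cfsg.Agent.Lib.Helper7.CharDeg
open scoped ComplexConjugate

universe u

variable {G : Type u} [Group G]

theorem card_ker_eq [Finite G] {χ : G → ℂ} (hχ : IsCharacter G χ) :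
    Nat.card {g : G // χ g = χ 1} = Nat.card (charKer χ hχ) := rfl

/-- the faithful character of `G ⧸ ker χ` -/
theorem exists_faithful_quot [Finite G] {χ : G → ℂ} (hχ : IsIrrCharacter G χ) :
    ∃ φ : G ⧸ charKer χ (IsIrrCharacter.isCharacter hχ) → ℂ,
      IsIrrCharacter (G ⧸ charKer χ (IsIrrCharacter.isCharacter hχ)) φ ∧
      (χ = fun g : G => φ (g : G ⧸ charKer χ (IsIrrCharacter.isCharacter hχ))) ∧
      (∀ q, φ q = φ 1 → q = 1) := by
  obtain ⟨φ, hφ, hφχ⟩ := exists_quot_of_irr (charKer χ (IsIrrCharacter.isCharacter hχ)) hχ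
    (fun n hn => hn)
  refine ⟨φ, hφ, hφχ, ?_⟩
  intro q hq
  obtain ⟨g, rfl⟩ := QuotientGroup.mk_surjective q
  rw [QuotientGroup.eq_one_iff, mem_charKer]
  have h1 : χ g = φ (g : G ⧸ charKer χ (IsIrrCharacter.isCharacter hχ)) := congrFun hφχ g
  have h2 : χ 1 = φ ((1 : G) : G ⧸ charKer χ (IsIrrCharacter.isCharacter hχ)) := congrFun hφχ 1
  rw [h1, h2]
  exact hq

theorem ker_mul_degree_dvd [Finite G] {χ : G → ℂ} (hχ : IsIrrCharacter G χ) :
    Nat.card {g : G // χ g = χ 1} * charDegree χ ∣ Nat.card G := by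
  obtain ⟨φ, hφ, hφχ, -⟩ := exists_faithful_quot hχ
  have h1 := charDegree_dvd_card hφ
  have h2 : charDegree φ = charDegree χ := by
    unfold charDegree
    have h3 : χ 1 = φ ((1 : G) : G ⧸ charKer χ (IsIrrCharacter.isCharacter hχ)) := congrFun hφχ 1
    rw [h3]
    rfl
  rw [h2] at h1
  rw [card_ker_eq (IsIrrCharacter.isCharacter hχ),
    ← Subgroup.card_mul_index (charKer χ (IsIrrCharacter.isCharacter hχ))]
  exact Nat.mul_dvd_mul_left _ h1

theorem cod_eq [Finite G] {χ : G → ℂ} (hχ : IsIrrCharacter G χ) :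
    Nat.card G / (Nat.card {g : G // χ g = χ 1} * charDegree χ) =
      Nat.card (G ⧸ charKer χ (IsIrrCharacter.isCharacter hχ)) / charDegree χ := by
  rw [card_ker_eq (IsIrrCharacter.isCharacter hχ), ← Nat.div_div_eq_div_mul]
  congr 1
  have h := Subgroup.card_mul_index (charKer χ (IsIrrCharacter.isCharacter hχ))
  rw [← h, Nat.mul_div_cancel_left _ Nat.card_pos]
  rfl

theorem cod_mul [Finite G] {χ : G → ℂ} (hχ : IsIrrCharacter G χ) :
    (Nat.card G / (Nat.card {g : G // χ g = χ 1} * charDegree χ)) *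
      (Nat.card {g : G // χ g = χ 1} * charDegree χ) = Nat.card G :=
  Nat.div_mul_cancel (ker_mul_degree_dvd hχ)

end Cfsg.Agent.Lib.Helper7.CharCod
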