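import Mathlib
import Cfsg.Prelude.Def_Characters
import Cfsg.Agent.Lib.Helper7.All1
import Cfsg.Agent.Lib.Helper7.CharGalois
import Cfsg.Agent.Lib.Helper7.CharZeros
import Cfsg.Agent.Lib.Helper7.CharGallagher
import Cfsg.Agent.Lib.Helper7.CharGallagher2
import Cfsg.Agent.Lib.Helper7.CharKer

set_option autoImplicit false
set_option linter.style.haveILetI false
set_option linter.unusedSectionVars false
set_option linter.unusedVariables false
set_option linter.unusedSimpArgs false

namespace Cfsg.Agent.Lib.Helper7.CosetZero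

open Module Representation Cfsg
open Cfsg.Agent.Lib.Helper7.CharBasic Cfsg.Agent.Lib.Helper7.CharIrr Cfsg.Agent.Lib.Helper7.CharDecomp Cfsg.Agent.Lib.Helper7.CharComplete Cfsg.Agent.Lib.Helper7.CharOrth Cfsg.Agent.Lib.Helper7.CharInd Cfsg.Agent.Lib.Helper7.CharIntegral Cfsg.Agent.Lib.Helper7.CharBurnside Cfsg.Agent.Lib.Helper7.CharLinear Cfsg.Agent.Lib.Helper7.CharEquiv Cfsg.Agent.Lib.Helper7.CharMore Cfsg.Agent.Lib.Helper7.CharCount Cfsg.Agent.Lib.Helper7.CharMisc Cfsg.Agent.Lib.Helper7.CharMisc2 Cfsg.Agent.Lib.Helper7.CharNormal Cfsg.Agent.Lib.Helper7.CharOdd Cfsg.Agent.Lib.Helper7.CharClifford Cfsg.Agent.Lib.Helper7.CharProd Cfsg.Agent.Lib.Helper7.CharPerm Cfsg.Agent.Lib.Helper7.CharClassAlg Cfsg.Agent.Lib.Helper7.CharClassAlg2 Cfsg.Agent.Lib.Helper7.CharCentral Cfsg.Agent.Lib.Helper7.CharNormal2 Cfsg.Agent.Lib.Helper7.CharCliffordCorr Cfsg.Agent.Lib.Helper7.CharGalois Cfsg.Agent.Lib.Helper7.CharZeros Cfsg.Agent.Lib.Helper7.CharGallagher Cfsg.Agent.Lib.Helper7.CharGallagher2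 Cfsg.Agent.Lib.Helper7.CharKer
open scoped ComplexConjugate

variable {G : Type*} [Group G]

theorem sum_units_norm_ge [Finite G] [Fintype (ZMod (Nat.card G))ˣ] {χ : G → ℂ}
    (hχ : IsCharacter G χ) {g : G} (h0 : χ g ≠ 0) :
    (Fintype.card (ZMod (Nat.card G))ˣ : ℝ) ≤ ∑ u : (ZMod (Nat.card G))ˣ, ‖χ (gp g u)‖ := by
  have hne : ∀ u : (ZMod (Nat.card G))ˣ, χ (gp g u) ≠ 0 :=
    fun u => char_pow_ne_zero hχ h0 (ZMod.val_coe_unit_coprime u)
  rw [← Finset.card_univ]
  apply card_le_sum_of_one_le_prod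
  · intro u _
    exact norm_pos_iff.mpr (hne u)
  · rw [← norm_prod]
    obtain ⟨n, hn⟩ := prod_gp_int hχ g
    have hn0 : n ≠ 0 := by
      intro h
      rw [h, Int.cast_zero, Finset.prod_eq_zero_iff] at hn
      obtain ⟨u, _, hu⟩ := hn
      exact hne u hu
    rw [hn, Complex.norm_intCast]
    rw [← Int.cast_abs]
    exact_mod_cast Int.one_le_abs hn0

/-- on a subset closed under coprime powers, the sum of `|χ|` is at
least the number of non-zeros. -/
theorem card_nonzero_le_sum_norm [Fintype G] {χ : G → ℂ} (hχ : IsCharacter G χ)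
    (S : G → Prop) [DecidablePred S]
    (hS : ∀ g : G, ∀ k : ℕ, k.Coprime (Nat.card G) → (S (g ^ k) ↔ S g)) :
    ∑ g : G, (if S g ∧ χ g ≠ 0 then (1 : ℝ) else 0) ≤ ∑ g : G, (if S g then ‖χ g‖ else 0) := by
  classical
  haveI : NeZero (Nat.card G) := ⟨Nat.card_pos.ne'⟩
  set U := (ZMod (Nat.card G))ˣ with hU
  have hcard : (0 : ℝ) < Fintype.card U := by exact_mod_cast Fintype.card_pos
  have h1 : ∀ u : U, ∑ g : G, (if S g then ‖χ (gp g u)‖ else 0) =
      ∑ g : G, (if S g then ‖χ g‖ else 0) := by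
    intro u
    have hc := ZMod.val_coe_unit_coprime u
    rw [← Equiv.sum_comp (powCoprime hc.symm) (fun g => if S g then ‖χ g‖ else 0)]
    apply Finset.sum_congr rfl
    intro g _
    have : (powCoprime hc.symm) g = g ^ (u : ZMod (Nat.card G)).val := rfl
    rw [this]
    simp only [hS g _ hc]
    rfl
  have h2 : (Fintype.card U : ℝ) * ∑ g : G, (if S g then ‖χ g‖ else 0) =
      ∑ g : G, (if S g then ∑ u : U, ‖χ (gp g u)‖ else 0) := by
    have : ∑ u : U, ∑ g : G, (if S g then ‖χ (gp g u)‖ else 0) =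
        (Fintype.card U : ℝ) * ∑ g : G, (if S g then ‖χ g‖ else 0) := by
      simp only [h1, Finset.sum_const, Finset.card_univ, nsmul_eq_mul]
    rw [← this, Finset.sum_comm]
    apply Finset.sum_congr rfl
    intro g _
    split_ifs
    · rfl
    · simp
  have h3 : (Fintype.card U : ℝ) * ∑ g : G, (if S g ∧ χ g ≠ 0 then (1 : ℝ) else 0) ≤
      ∑ g : G, (if S g then ∑ u : U, ‖χ (gp g u)‖ else 0) := by
    rw [Finset.mul_sum]
    apply Finset.sum_le_sum
    intro g _
    by_cases hs : S g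
    · by_cases h0 : χ g = 0
      · rw [if_neg (by simp [h0]), if_pos hs, mul_zero]
        positivity
      · rw [if_pos ⟨hs, h0⟩, if_pos hs, mul_one]
        exact sum_units_norm_ge hχ h0
    · rw [if_neg (by simp [hs]), if_neg hs, mul_zero]
  rw [← h2] at h3
  exact le_of_mul_le_mul_left h3 hcard

/-- coset average of a character is a character. -/
theorem isCharacter_cosetAvg [Fintype G] (N : Subgroup G) [hN : N.Normal] [Fintype N] {F : G → ℂ}
    (hF : IsCharacter G F) : IsCharacter G (cosetAvg N F) := by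
  classical
  apply isCharacter_of_classInner_nat (isClassFunction_cosetAvg N (IsCharacter.isClassFunction hF))
  intro γ hγ
  rw [classInner_cosetAvg N F hγ]
  split_ifs
  · exact classInner_isCharacter_nat hF (IsIrrCharacter.isCharacter hγ)
  · exact ⟨0, by simp⟩

section Main

variable [Fintype G] (N : Subgroup G) [hN : N.Normal] [Fintype N] {χ : G → ℂ}

/-- the real coset average of `|χ|²`. -/
noncomputable def rAvg (χ : G → ℂ) (g : G) : ℝ :=
  (Nat.card N : ℝ)⁻¹ * ∑ n : N, ‖χ ((n : G) * g)‖ ^ 2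

theorem cosetAvg_eq_rAvg (χ : G → ℂ) (g : G) :
    cosetAvg N (χ * fun g => conj (χ g)) g = (rAvg N χ g : ℂ) := by
  unfold cosetAvg rAvg
  push_cast
  congr 1
  refine Finset.sum_congr rfl fun n _ => ?_
  simp only [Pi.mul_apply]
  rw [Complex.mul_conj, Complex.normSq_eq_norm_sq]
  push_cast
  rfl

theorem rAvg_nonneg (χ : G → ℂ) (g : G) : 0 ≤ rAvg N χ g := by
  unfold rAvg
  positivity

theorem rAvg_ne_zero {g : G} (h : ∃ n : N, χ ((n : G) * g) ≠ 0) : rAvg N χ g ≠ 0 := by
  obtain ⟨n, hn⟩ := h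
  unfold rAvg
  have hN0 : (0 : ℝ) < Nat.card N := by exact_mod_cast Nat.card_pos
  have h1 : 0 < ∑ n : N, ‖χ ((n : G) * g)‖ ^ 2 := by
    apply Finset.sum_pos'
    · intro i _; positivity
    · exact ⟨n, Finset.mem_univ _, by have := norm_pos_iff.mpr hn; positivity⟩
  positivity

theorem rAvg_eq_zero {g : G} (h : ∀ n : N, χ ((n : G) * g) = 0) : rAvg N χ g = 0 := by
  unfold rAvg
  simp [h]

theorem rAvg_mem (χ : G → ℂ) {g : G} (hg : g ∈ N) :
    (rAvg N χ g : ℂ) = classInner (fun n : N => χ n) (fun n : N => χ n) := by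
  have h1 : ∑ n : N, ‖χ ((n : G) * g)‖ ^ 2 = ∑ n : N, ‖χ (n : G)‖ ^ 2 :=
    Equiv.sum_comp (Equiv.mulRight (⟨g, hg⟩ : N)) (fun n : N => ‖χ (n : G)‖ ^ 2)
  unfold rAvg classInner
  rw [h1]
  push_cast
  congr 1
  refine Finset.sum_congr rfl fun n _ => ?_
  rw [Complex.mul_conj, Complex.normSq_eq_norm_sq]
  push_cast
  rfl

theorem sum_rAvg (hχ : IsIrrCharacter G χ) : ∑ g : G, rAvg N χ g = Nat.card G := by
  classical
  have h1 := classInner_irr hχ hχ
  rw [if_pos rfl] at h1
  unfold classInner at h1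
  have hG0 : (Nat.card G : ℂ) ≠ 0 := card_ne_zero
  have h2 : ∑ g : G, ‖χ g‖ ^ 2 = (Nat.card G : ℝ) := by
    have h3 : ((∑ g : G, ‖χ g‖ ^ 2 : ℝ) : ℂ) = (Nat.card G : ℂ) := by
      push_cast
      field_simp at h1
      rw [← h1]
      refine Finset.sum_congr rfl fun g _ => ?_
      rw [Complex.mul_conj, Complex.normSq_eq_norm_sq]
      push_cast
      rfl
    exact_mod_cast h3
  unfold rAvg
  rw [← Finset.mul_sum, Finset.sum_comm]
  have h3 : ∀ n : N, ∑ g : G, ‖χ ((n : G) * g)‖ ^ 2 = (Nat.card G : ℝ) := by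
    intro n
    rw [← h2]
    exact Equiv.sum_comp (Equiv.mulLeft (n : G)) (fun g => ‖χ g‖ ^ 2)
  simp only [h3, Finset.sum_const, Finset.card_univ, nsmul_eq_mul]
  have hN0 : (Nat.card N : ℝ) ≠ 0 := by exact_mod_cast Nat.card_pos.ne'
  rw [← Nat.card_eq_fintype_card]
  field_simp

theorem exists_coset_zero (hχ : IsIrrCharacter G χ)
    (hred : ¬ IsIrrCharacter N (fun n : N => χ n)) : ∃ x : G, ∀ n : N, χ ((n : G) * x) = 0 := by
  classical
  by_contra hcon
  push Not at hcon
  have hχc := IsIrrCharacter.isCharacter hχ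
  have hF : IsCharacter G (cosetAvg N (χ * fun g => conj (χ g))) :=
    isCharacter_cosetAvg N (isCharacter_mul hχc (isCharacter_conj hχc))
  have h1 := card_nonzero_le_sum_norm hF (fun g => g ∉ N) (by
    intro g k hk
    have hiff : g ^ k ∈ N ↔ g ∈ N := by
      constructor
      · intro h
        obtain ⟨j, hj⟩ := exists_pow_eq_self_of_coprime
          (Nat.Coprime.coprime_dvd_right (orderOf_dvd_natCard g) hk)
        rw [← hj]
        exact N.pow_mem h j
      · intro h; exact N.pow_mem h k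
    exact not_congr hiff)
  have hres := isCharacter_restrict N hχc
  obtain ⟨m, hm⟩ := classInner_isCharacter_nat hres hres
  have hrm : ∀ g ∈ N, rAvg N χ g = m := by
    intro g hg
    have := rAvg_mem N χ hg
    rw [hm] at this
    exact_mod_cast this
  have hm1 : m ≠ 1 := by
    rintro rfl
    apply hred
    rw [isIrrCharacter_iff_norm_one]
    exact ⟨hres, by rw [hm, Nat.cast_one]⟩
  have hm0 : m ≠ 0 := by
    rintro rfl
    have h2 := hrm 1 N.one_mem
    exact rAvg_ne_zero N (hcon 1) (by rw [h2, Nat.cast_zero])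
  have hm2 : (2 : ℝ) ≤ m := by
    have : 2 ≤ m := by omega
    exact_mod_cast this
  have hcN : ∑ g : G, (if g ∈ N then (1 : ℝ) else 0) = Nat.card N := by
    rw [Finset.sum_boole, Nat.card_eq_fintype_card, Fintype.card_subtype]
  have hl : ∑ g : G, (if g ∉ N ∧ cosetAvg N (χ * fun g => conj (χ g)) g ≠ 0 then (1 : ℝ) else 0) =
      Nat.card G - Nat.card N := by
    rw [← hcN, eq_sub_iff_add_eq, ← Finset.sum_add_distrib]
    have : ∀ g : G, ((if g ∉ N ∧ cosetAvg N (χ * fun g => conj (χ g)) g ≠ 0 then (1 : ℝ) else 0) +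
        if g ∈ N then (1 : ℝ) else 0) = 1 := by
      intro g
      have h0 : cosetAvg N (χ * fun g => conj (χ g)) g ≠ 0 := by
        rw [cosetAvg_eq_rAvg]
        exact_mod_cast rAvg_ne_zero N (hcon g)
      by_cases hg : g ∈ N
      · simp [hg]
      · simp [hg, h0]
    simp only [this, Finset.sum_const, Finset.card_univ, nsmul_eq_mul, mul_one,
      Nat.card_eq_fintype_card]
  have hr : ∑ g : G, (if g ∉ N then ‖cosetAvg N (χ * fun g => conj (χ g)) g‖ else 0) =
      Nat.card G - m * Nat.card N := by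
    rw [← sum_rAvg N hχ, ← hcN, Finset.mul_sum, eq_sub_iff_add_eq, ← Finset.sum_add_distrib]
    refine Finset.sum_congr rfl fun g _ => ?_
    by_cases hg : g ∈ N
    · simp [hg, hrm g hg]
    · simp only [hg, not_false_eq_true, if_true, if_false, mul_zero, add_zero]
      rw [cosetAvg_eq_rAvg, Complex.norm_real, Real.norm_of_nonneg (rAvg_nonneg N χ g)]
  rw [hl, hr] at h1
  have hN0 : (0 : ℝ) < Nat.card N := by exact_mod_cast Nat.card_pos
  nlinarith

theorem no_coset_zero (hχ : IsIrrCharacter G χ) (hirr : IsIrrCharacter N (fun n : N => χ n))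
    (x : G) : ∃ n : N, χ ((n : G) * x) ≠ 0 := by
  classical
  by_contra hcon
  push Not at hcon
  have hχc := IsIrrCharacter.isCharacter hχ
  obtain ⟨g1, g2, _⟩ := gallagher N hχ hirr
  have hcf : IsClassFunction G (cosetAvg N (χ * fun g => conj (χ g))) :=
    isClassFunction_cosetAvg N
      (IsCharacter.isClassFunction (isCharacter_mul hχc (isCharacter_conj hχc)))
  have h1 : cosetAvg N (χ * fun g => conj (χ g)) - (fun _ => 1) = 0 := by
    apply eq_zero_of_classInner_eq_zero
    · intro g c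
      simp only [Pi.sub_apply, hcf g c]
    · intro γ hγ
      rw [classInner_sub_left, classInner_cosetAvg N _ hγ,
        classInner_irr (isIrrCharacter_one (G := G)) hγ]
      by_cases hk : ∀ n ∈ N, γ n = γ 1
      · rw [if_pos hk]
        have h2 : classInner (χ * fun g => conj (χ g)) γ = classInner χ (γ * χ) := by
          unfold classInner
          congr 1
          refine Finset.sum_congr rfl fun g _ => ?_
          simp only [Pi.mul_apply, map_mul]
          ring
        rw [h2, classInner_irr hχ (g1 γ hγ hk)]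
        by_cases h3 : (fun _ => 1) = γ
        · rw [if_pos h3, if_pos, sub_self]
          rw [← h3]
          funext g
          simp
        · rw [if_neg h3, if_neg, sub_self]
          intro h4
          apply h3
          apply g2 (fun _ => 1) γ isIrrCharacter_one (fun _ _ => rfl) hγ hk
          rw [← h4]
          funext g
          simp
      · rw [if_neg hk, if_neg, sub_self]
        intro h3
        apply hk
        intro n _
        rw [← h3]
  have h2 := congrFun h1 x
  simp only [Pi.sub_apply, Pi.zero_apply] at h2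
  rw [cosetAvg_eq_rAvg, rAvg_eq_zero N hcon] at h2
  simp at h2

end Main

end Cfsg.Agent.Lib.Helper7.CosetZero
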