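import Mathlib
import Cfsg.Prelude.Def_Characters
import Cfsg.Agent.Lib.Helper7.All1
import Cfsg.Agent.Lib.Helper7.CharKer

set_option autoImplicit false
set_option linter.style.haveILetI false
set_option linter.unusedSectionVars false
set_option linter.unusedVariables false
set_option linter.unusedSimpArgs false

namespace Cfsg.Agent.Lib.Helper7.Gagola1

open Module Representation Cfsg
open Cfsg.Agent.Lib.Helper7.CharBasic Cfsg.Agent.Lib.Helper7.CharIrr Cfsg.Agent.Lib.Helper7.CharDecomp Cfsg.Agent.Lib.Helper7.CharComplete Cfsg.Agent.Lib.Helper7.CharOrth Cfsg.Agent.Lib.Helper7.CharInd Cfsg.Agent.Lib.Helper7.CharIntegral Cfsg.Agent.Lib.Helper7.CharBurnside Cfsg.Agent.Lib.Helper7.CharLinear Cfsg.Agent.Lib.Helper7.CharEquiv Cfsg.Agent.Lib.Helper7.CharMore Cfsg.Agent.Lib.Helper7.CharCount Cfsg.Agent.Lib.Helper7.CharMisc Cfsg.Agent.Lib.Helper7.CharMisc2 Cfsg.Agent.Lib.Helper7.CharNormal Cfsg.Agent.Lib.Helper7.CharOdd Cfsg.Agent.Lib.Helper7.CharClifford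 Cfsg.Agent.Lib.Helper7.CharProd Cfsg.Agent.Lib.Helper7.CharPerm Cfsg.Agent.Lib.Helper7.CharClassAlg Cfsg.Agent.Lib.Helper7.CharClassAlg2 Cfsg.Agent.Lib.Helper7.CharCentral Cfsg.Agent.Lib.Helper7.CharNormal2 Cfsg.Agent.Lib.Helper7.CharCliffordCorr Cfsg.Agent.Lib.Helper7.CharKer
open scoped ComplexConjugate

variable {G : Type*} [Group G]

/-- `χ` is irreducible and nonzero exactly on `1` and on the class of `x ≠ 1`. -/
structure TwoClass (χ : G → ℂ) (x : G) : Prop where
  irr : IsIrrCharacter G χ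
  ne_one : x ≠ 1
  ne_zero : χ x ≠ 0
  supp : ∀ g, χ g ≠ 0 → g = 1 ∨ IsConj x g

theorem exists_twoClass [Finite G] (χ : IrrCharacter G)
    (hχ : Nat.card {C : ConjClasses G // ∃ g ∈ C.carrier, (χ : G → ℂ) g ≠ 0} = 2) :
    ∃ x, TwoClass χ.1 x := by
  have h1 : χ.1 1 ≠ 0 := irr_one_ne_zero χ.2
  obtain ⟨⟨C, x, hxC, hx0⟩, hne, huniq⟩ := (Nat.card_eq_two_iff'
    (⟨ConjClasses.mk 1, 1, ConjClasses.mem_carrier_mk, h1⟩ :
      {C : ConjClasses G // ∃ g ∈ C.carrier, (χ : G → ℂ) g ≠ 0})).mp hχ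
  rw [ConjClasses.mem_carrier_iff_mk_eq] at hxC
  refine ⟨x, χ.2, ?_, hx0, ?_⟩
  · rintro rfl
    exact hne (Subtype.ext hxC.symm)
  · intro g hg
    by_cases hg1 : g = 1
    · exact Or.inl hg1
    · right
      have := huniq ⟨ConjClasses.mk g, g, ConjClasses.mem_carrier_mk, hg⟩ (by
        intro h
        have h2 : ConjClasses.mk g = ConjClasses.mk 1 := congrArg Subtype.val h
        rw [ConjClasses.mk_eq_mk_iff_isConj] at h2
        exact hg1 (isConj_one_left.mp h2))
      have h3 : ConjClasses.mk g = C := congrArg Subtype.val this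
      rw [← hxC, ConjClasses.mk_eq_mk_iff_isConj] at h3
      exact h3.symm

namespace TwoClass

variable [Fintype G] {χ : G → ℂ} {x : G}

theorem sum_eq (h : TwoClass χ x) {F : G → ℂ} (hF : IsClassFunction G F)
    (h0 : ∀ g, χ g = 0 → F g = 0) :
    ∑ g, F g = F 1 + ((Subgroup.centralizer {x}).index : ℂ) * F x := by
  classical
  rw [← sum_isConj_mul x hF]
  have h1 : F 1 = ∑ g, if g = 1 then F g else 0 := by simp
  rw [h1, ← Finset.sum_add_distrib]
  refine Finset.sum_congr rfl fun g _ => ?_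
  by_cases hg1 : g = 1
  · rw [if_pos hg1, if_neg, add_zero]
    rw [hg1]
    intro hc
    exact h.ne_one (isConj_one_left.mp hc)
  · rw [if_neg hg1, zero_add]
    by_cases hc : IsConj x g
    · rw [if_pos hc]
    · rw [if_neg hc]
      apply h0
      by_contra hne
      rcases h.supp g hne with h2 | h2
      · exact hg1 h2
      · exact hc h2

theorem ne_trivial (h : TwoClass χ x) (hG : 2 < Nat.card G) : χ ≠ fun _ => 1 := by
  classical
  intro hχ
  have h1 := h.sum_eq (F := fun _ => 1) (fun _ _ => rfl) (by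
    intro g hg
    rw [hχ] at hg
    exact absurd hg one_ne_zero)
  simp only [Finset.sum_const, Finset.card_univ, nsmul_eq_mul, mul_one] at h1
  have h2 : Fintype.card G = 1 + (Subgroup.centralizer {x}).index := by exact_mod_cast h1
  have h3 : (Subgroup.centralizer {x}).index ∣ Nat.card G := Subgroup.index_dvd_card _
  rw [Nat.card_eq_fintype_card] at h3 hG
  rw [h2] at h3
  have h4 : (Subgroup.centralizer {x}).index ∣ 1 := (Nat.dvd_add_left dvd_rfl).mp h3
  have h5 := Nat.dvd_one.mp h4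
  omega

theorem val (h : TwoClass χ x) (hG : 2 < Nat.card G) :
    χ 1 + ((Subgroup.centralizer {x}).index : ℂ) * χ x = 0 := by
  classical
  have h1 := classInner_irr h.irr (isIrrCharacter_one (G := G))
  rw [if_neg (h.ne_trivial hG)] at h1
  unfold classInner at h1
  simp only [map_one, mul_one] at h1
  rw [h.sum_eq (IsIrrCharacter.isClassFunction h.irr) (fun g hg => hg)] at h1
  rcases mul_eq_zero.mp h1 with h2 | h2
  · exact absurd h2 (inv_ne_zero card_ne_zero)
  · exact h2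

theorem other (h : TwoClass χ x) (hG : 2 < Nat.card G) {ψ : G → ℂ} (hψ : IsIrrCharacter G ψ)
    (hne : ψ ≠ χ) : ψ x = ψ 1 := by
  classical
  have h1 := classInner_irr h.irr hψ
  rw [if_neg (Ne.symm hne)] at h1
  unfold classInner at h1
  have hcf : IsClassFunction G (fun g => χ g * conj (ψ g)) := by
    intro g c
    simp only [IsIrrCharacter.isClassFunction h.irr g c, IsIrrCharacter.isClassFunction hψ g c]
  rw [h.sum_eq hcf (fun g hg => by simp only [hg, zero_mul])] at h1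
  have h2 : χ 1 * conj (ψ 1) + ((Subgroup.centralizer {x}).index : ℂ) * (χ x * conj (ψ x)) = 0 := by
    rcases mul_eq_zero.mp h1 with h2 | h2
    · exact absurd h2 (inv_ne_zero card_ne_zero)
    · exact h2
  have h3 := h.val hG
  have h4 : χ 1 * (conj (ψ 1) - conj (ψ x)) = 0 := by
    linear_combination h2 - conj (ψ x) * h3
  rcases mul_eq_zero.mp h4 with h5 | h5
  · exact absurd h5 (irr_one_ne_zero h.irr)
  · have h6 := sub_eq_zero.mp h5
    exact ((starRingEnd ℂ).injective h6).symm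

theorem faithful (h : TwoClass χ x) (hG : 2 < Nat.card G) (g : G) (hg : χ g = χ 1) : g = 1 := by
  have h1 : χ g ≠ 0 := by rw [hg]; exact irr_one_ne_zero h.irr
  rcases h.supp g h1 with h2 | h2
  · exact h2
  · exfalso
    have h3 := IsClassFunction.eq_of_isConj (IsIrrCharacter.isClassFunction h.irr) h2
    have h4 := h.val hG
    rw [h3, hg] at h4
    have h5 : χ 1 * ((1 + (Subgroup.centralizer {x}).index : ℕ) : ℂ) = 0 := by
      push_cast
      linear_combination h4
    rcases mul_eq_zero.mp h5 with h6 | h6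
    · exact irr_one_ne_zero h.irr h6
    · have : 1 + (Subgroup.centralizer {x}).index = 0 := by exact_mod_cast h6
      omega

/-- the intersection of the kernels of the other irreducible characters -/
def N (χ : G → ℂ) : Subgroup G :=
  ⨅ ψ : {ψ : IrrCharacter G // ψ.1 ≠ χ}, charKer ψ.1.1 (IsIrrCharacter.isCharacter ψ.1.2)

instance N_normal (χ : G → ℂ) : (N χ).Normal :=
  Subgroup.normal_iInf_normal fun _ => inferInstance

theorem mem_N (χ : G → ℂ) (g : G) :
    g ∈ N χ ↔ ∀ ψ : G → ℂ, IsIrrCharacter G ψ → ψ ≠ χ → ψ g = ψ 1 := by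
  unfold N
  rw [Subgroup.mem_iInf]
  constructor
  · intro h ψ hψ hne
    exact h ⟨⟨ψ, hψ⟩, hne⟩
  · intro h ψ
    exact h ψ.1.1 ψ.1.2 ψ.2

theorem mem_N_iff (h : TwoClass χ x) (hG : 2 < Nat.card G) (g : G) : g ∈ N χ ↔ χ g ≠ 0 := by
  classical
  haveI := Fintype.ofFinite (IrrCharacter G)
  constructor
  · intro hg h0
    rw [mem_N] at hg
    have hg1 : g ≠ 1 := by
      rintro rfl
      exact irr_one_ne_zero h.irr h0
    have h1 := col_orth g 1
    rw [if_neg (fun hc => hg1 (isConj_one_left.mp hc))] at h1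
    have h2 := congrArg Complex.re h1
    rw [Complex.re_sum, Complex.zero_re] at h2
    have h3 : ∀ ψ : IrrCharacter G, 0 ≤ (ψ.1 g * conj (ψ.1 1)).re := by
      intro ψ
      by_cases hψ : ψ.1 = χ
      · rw [hψ, h0, zero_mul, Complex.zero_re]
      · rw [hg ψ.1 ψ.2 hψ]
        obtain ⟨n, hn⟩ := irr_one_eq_natCast (IsIrrCharacter.isCharacter ψ.2)
        rw [hn, Complex.conj_natCast, ← Nat.cast_mul, Complex.natCast_re]
        positivity
    have h4 := Finset.single_le_sum (fun ψ _ => h3 ψ)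
      (Finset.mem_univ (⟨_, isIrrCharacter_one (G := G)⟩ : IrrCharacter G))
    rw [h2] at h4
    simp at h4
    linarith
  · intro hg
    rw [mem_N]
    intro ψ hψ hne
    rcases h.supp g hg with h2 | h2
    · rw [h2]
    · rw [← IsClassFunction.eq_of_isConj (IsIrrCharacter.isClassFunction hψ) h2]
      exact h.other hG hψ hne

theorem isConj_of_mem (h : TwoClass χ x) (hG : 2 < Nat.card G) {g : G} (hg : g ∈ N χ)
    (hg1 : g ≠ 1) : IsConj x g := by
  rcases h.supp g ((h.mem_N_iff hG g).mp hg) with h2 | h2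
  · exact absurd h2 hg1
  · exact h2

theorem x_mem (h : TwoClass χ x) (hG : 2 < Nat.card G) : x ∈ N χ :=
  (h.mem_N_iff hG x).mpr h.ne_zero

theorem N_ne_bot (h : TwoClass χ x) (hG : 2 < Nat.card G) : N χ ≠ ⊥ := by
  intro hb
  have := h.x_mem hG
  rw [hb, Subgroup.mem_bot] at this
  exact h.ne_one this

theorem conj_in_N (h : TwoClass χ x) (hG : 2 < Nat.card G) {a b : G} (ha : a ∈ N χ)
    (hb : b ∈ N χ) (ha1 : a ≠ 1) (hb1 : b ≠ 1) : ∃ g : G, g * a * g⁻¹ = b :=
  isConj_iff.mp ((h.isConj_of_mem hG ha ha1).symm.trans (h.isConj_of_mem hG hb hb1))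

theorem N_le (h : TwoClass χ x) (hG : 2 < Nat.card G) (M : Subgroup G) (hM : M.Normal)
    (hM1 : M ≠ ⊥) : N χ ≤ M := by
  classical
  by_cases hex : ∃ m ∈ M, m ≠ 1 ∧ χ m ≠ 0
  · obtain ⟨m, hm, hm1, hm0⟩ := hex
    intro a ha
    by_cases ha1 : a = 1
    · rw [ha1]; exact M.one_mem
    · obtain ⟨c, hc⟩ := h.conj_in_N hG ((h.mem_N_iff hG m).mpr hm0) ha hm1 ha1
      rw [← hc]
      exact hM.conj_mem m hm c
  · exfalso
    push Not at hex
    obtain ⟨m, hm, hm1⟩ : ∃ m : G, m ∈ M ∧ m ≠ 1 := by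
      obtain ⟨m, hm⟩ := Subgroup.ne_bot_iff_exists_ne_one.mp hM1
      exact ⟨m, m.2, fun hh => hm (Subtype.ext hh)⟩
    haveI := hM
    have h1 := sum_restrict_eq_zero M h.irr ⟨m, hm, by
      rw [hex m hm hm1]; exact (irr_one_ne_zero h.irr).symm⟩
    rw [Finset.sum_eq_single (1 : M)] at h1
    · exact irr_one_ne_zero h.irr h1
    · intro b _ hb
      exact hex b b.2 (fun hh => hb (Subtype.ext hh))
    · intro hh; exact absurd (Finset.mem_univ _) hh

theorem exists_prime (h : TwoClass χ x) (hG : 2 < Nat.card G) :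
    ∃ p : ℕ, p.Prime ∧ ∀ a ∈ N χ, a ^ p = 1 := by
  have hx1 : orderOf x ≠ 1 := fun hh => h.ne_one (orderOf_eq_one_iff.mp hh)
  obtain ⟨p, hp, hpd⟩ := Nat.exists_prime_and_dvd hx1
  have h1 : orderOf (x ^ (orderOf x / p)) = p :=
    orderOf_pow_orderOf_div (orderOf_pos x).ne' hpd
  have h2 : x ^ (orderOf x / p) ∈ N χ := Subgroup.pow_mem _ (h.x_mem hG) _
  have h3 : x ^ (orderOf x / p) ≠ 1 := by
    intro hh
    rw [hh, orderOf_one] at h1
    exact hp.one_lt.ne h1
  have key : ∀ a ∈ N χ, a ≠ 1 → a ^ p = 1 := by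
    intro a ha ha1
    obtain ⟨c, hc⟩ := h.conj_in_N hG h2 ha h3 ha1
    have h4 : (x ^ (orderOf x / p)) ^ p = 1 := by
      have := pow_orderOf_eq_one (x ^ (orderOf x / p))
      rwa [h1] at this
    rw [← hc, conj_pow, h4]
    simp
  refine ⟨p, hp, fun a ha => ?_⟩
  by_cases ha1 : a = 1
  · rw [ha1, one_pow]
  · exact key a ha ha1

theorem comm (h : TwoClass χ x) (hG : 2 < Nat.card G) :
    ∀ a ∈ N χ, ∀ b ∈ N χ, a * b = b * a := by
  obtain ⟨p, hp, hpow⟩ := h.exists_prime hG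
  haveI : Fact p.Prime := ⟨hp⟩
  have hPG : IsPGroup p (N χ) := by
    intro a
    refine ⟨1, ?_⟩
    rw [pow_one]
    exact Subtype.ext (hpow a a.2)
  haveI : Nontrivial (N χ) := (Subgroup.nontrivial_iff_ne_bot _).mpr (h.N_ne_bot hG)
  haveI := hPG.center_nontrivial
  obtain ⟨z, hz⟩ := exists_ne (1 : Subgroup.center (N χ))
  have hz1 : ((z : N χ) : G) ≠ 1 := fun hh => hz (Subtype.ext (Subtype.ext hh))
  have hzc : ∀ b ∈ N χ, ((z : N χ) : G) * b = b * ((z : N χ) : G) := by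
    intro b hb
    have := Subgroup.mem_center_iff.mp z.2 ⟨b, hb⟩
    exact (congrArg Subtype.val this).symm
  intro a ha b hb
  by_cases ha1 : a = 1
  · rw [ha1, one_mul, mul_one]
  · obtain ⟨c, hc⟩ := h.conj_in_N hG (z : N χ).2 ha hz1 ha1
    have h1 := hzc (c⁻¹ * b * c⁻¹⁻¹) ((N_normal χ).conj_mem b hb c⁻¹)
    rw [← hc]
    have h2 : c * (((z : N χ) : G) * (c⁻¹ * b * c⁻¹⁻¹)) * c⁻¹ =
        c * ((c⁻¹ * b * c⁻¹⁻¹) * ((z : N χ) : G)) * c⁻¹ := by rw [h1]
    simp only [inv_inv] at h2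
    calc c * ((z : N χ) : G) * c⁻¹ * b = c * (((z : N χ) : G) * (c⁻¹ * b * c)) * c⁻¹ := by group
      _ = c * ((c⁻¹ * b * c) * ((z : N χ) : G)) * c⁻¹ := h2
      _ = b * (c * ((z : N χ) : G) * c⁻¹) := by group

end TwoClass

end Cfsg.Agent.Lib.Helper7.Gagola1
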