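import Mathlib
import Cfsg.Prelude.Def_Characters
import Cfsg.Agent.Lib.Helper7.All1
import Cfsg.Agent.Lib.Helper7.CharKer
import Cfsg.Agent.Lib.Helper7.Gagola1
import Cfsg.Agent.Lib.Helper7.CharDeg
import Cfsg.Agent.Lib.Helper7.OpRes1

set_option autoImplicit false
set_option linter.style.haveILetI false
set_option linter.unusedSectionVars false
set_option linter.unusedVariables false
set_option linter.unusedSimpArgs false

namespace Cfsg.Agent.Lib.Helper7.Gagola2

open Module Representation Cfsg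
open Cfsg.Agent.Lib.Helper7.CharBasic Cfsg.Agent.Lib.Helper7.CharIrr Cfsg.Agent.Lib.Helper7.CharDecomp Cfsg.Agent.Lib.Helper7.CharComplete Cfsg.Agent.Lib.Helper7.CharOrth Cfsg.Agent.Lib.Helper7.CharInd Cfsg.Agent.Lib.Helper7.CharIntegral Cfsg.Agent.Lib.Helper7.CharBurnside Cfsg.Agent.Lib.Helper7.CharLinear Cfsg.Agent.Lib.Helper7.CharEquiv Cfsg.Agent.Lib.Helper7.CharMore Cfsg.Agent.Lib.Helper7.CharCount Cfsg.Agent.Lib.Helper7.CharMisc Cfsg.Agent.Lib.Helper7.CharMisc2 Cfsg.Agent.Lib.Helper7.CharNormal Cfsg.Agent.Lib.Helper7.CharOdd Cfsg.Agent.Lib.Helper7.CharClifford Cfsg.Agent.Lib.Helper7.CharProd Cfsg.Agent.Lib.Helper7.CharPerm Cfsg.Agent.Lib.Helper7.CharClassAlg Cfsg.Agent.Lib.Helper7.CharClassAlg2 Cfsg.Agent.Lib.Helper7.CharCentral Cfsg.Agent.Lib.Helper7.CharNormal2 Cfsg.Agent.Lib.Helper7.CharCliffordCorr Cfsg.Agent.Lib.Helper7.CharKer Cfsg.Agent.Lib.Helper7.Gagola1 Cfsg.Agent.Lib.Helper7.CharDeg Cfsg.Agent.Lib.Helper7.OpRes1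
open scoped ComplexConjugate

variable {G : Type*} [Group G]

namespace TwoClass

open Gagola1.TwoClass

variable [Fintype G] {χ : G → ℂ} {x : G}

theorem of_mem (h : TwoClass χ x) (hG : 2 < Nat.card G) {y : G} (hy : y ∈ N χ) (hy1 : y ≠ 1) :
    TwoClass χ y where
  irr := h.irr
  ne_one := hy1
  ne_zero := (h.mem_N_iff hG y).mp hy
  supp := by
    intro g hg
    rcases h.supp g hg with h1 | h1
    · exact Or.inl h1
    · exact Or.inr ((h.isConj_of_mem hG hy hy1).symm.trans h1)

theorem card_N (h : TwoClass χ x) (hG : 2 < Nat.card G) :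
    Nat.card (N χ) = 1 + (Subgroup.centralizer {x}).index := by
  classical
  have hcf : IsClassFunction G (fun g => if χ g = 0 then (0 : ℂ) else 1) := by
    intro g c
    simp only [IsIrrCharacter.isClassFunction h.irr g c]
  have h1 := h.sum_eq hcf (fun g hg => by simp only [hg, if_true])
  simp only [if_neg (irr_one_ne_zero h.irr), if_neg h.ne_zero, mul_one] at h1
  have h2 : ∑ g : G, (if χ g = 0 then (0 : ℂ) else 1) = (Nat.card (N χ) : ℂ) := by
    rw [Nat.card_eq_fintype_card, Fintype.card_subtype]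
    rw [Finset.card_eq_sum_ones, Finset.sum_filter]
    push_cast
    refine Finset.sum_congr rfl fun g _ => ?_
    by_cases hg : χ g = 0
    · rw [if_pos hg, if_neg]
      rw [h.mem_N_iff hG]
      exact not_not.mpr hg
    · rw [if_neg hg, if_pos]
      exact (h.mem_N_iff hG g).mpr hg
  rw [h2] at h1
  exact_mod_cast h1

theorem deg_eq (h : TwoClass χ x) (hG : 2 < Nat.card G) :
    charDegree χ ^ 2 * Nat.card (N χ) =
      Nat.card (Subgroup.centralizer {x}) * (Subgroup.centralizer {x}).index ^ 2 := by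
  classical
  have h1 := classInner_irr h.irr h.irr
  rw [if_pos rfl] at h1
  unfold classInner at h1
  have hcf : IsClassFunction G (fun g => χ g * conj (χ g)) := by
    intro g c
    simp only [IsIrrCharacter.isClassFunction h.irr g c]
  rw [h.sum_eq hcf (fun g hg => by simp only [hg, zero_mul])] at h1
  have hG0 : (Nat.card G : ℂ) ≠ 0 := card_ne_zero
  have h2 : χ 1 * conj (χ 1) + ((Subgroup.centralizer {x}).index : ℂ) * (χ x * conj (χ x)) =
      (Nat.card G : ℂ) := by
    field_simp at h1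
    rw [← h1]; ring
  have h3 := h.val hG
  have hd := charDegree_cast (IsIrrCharacter.isCharacter h.irr)
  have h4 : ((Subgroup.centralizer {x}).index : ℂ) * χ x = - (charDegree χ : ℂ) := by
    rw [hd]; linear_combination h3
  have h5 : ((Subgroup.centralizer {x}).index : ℂ) * conj (χ x) = - (charDegree χ : ℂ) := by
    have := congrArg conj h4
    simpa using this
  have h6 : (Nat.card G : ℂ) = (Nat.card (Subgroup.centralizer {x}) : ℂ) *
      ((Subgroup.centralizer {x}).index : ℂ) := by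
    rw [← Nat.cast_mul, Subgroup.card_mul_index]
  rw [← hd, Complex.conj_natCast, h6] at h2
  rw [card_N h hG]
  have h7 : ((charDegree χ ^ 2 * (1 + (Subgroup.centralizer {x}).index) : ℕ) : ℂ) =
      ((Nat.card (Subgroup.centralizer {x}) * (Subgroup.centralizer {x}).index ^ 2 : ℕ) : ℂ) := by
    push_cast
    linear_combination ((Subgroup.centralizer {x}).index : ℂ) * h2 -
      (((Subgroup.centralizer {x}).index : ℂ) * conj (χ x)) * h4 + (charDegree χ : ℂ) * h5
  exact_mod_cast h7

theorem card_dvd_deg (h : TwoClass χ x) (Q : Subgroup G) (hQ : ∀ g ∈ Q, g ≠ 1 → χ g = 0) :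
    Nat.card Q ∣ charDegree χ := by
  classical
  obtain ⟨m, hm⟩ := classInner_isCharacter_nat
    (isCharacter_restrict Q (IsIrrCharacter.isCharacter h.irr))
    (IsIrrCharacter.isCharacter (isIrrCharacter_one (G := Q)))
  unfold classInner at hm
  simp only [map_one, mul_one] at hm
  rw [Finset.sum_eq_single (1 : Q)] at hm
  · have hQ0 : (Nat.card Q : ℂ) ≠ 0 := card_ne_zero
    have h1 : χ 1 = (Nat.card Q : ℂ) * m := by
      field_simp at hm
      exact hm
    rw [← charDegree_cast (IsIrrCharacter.isCharacter h.irr)] at h1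
    exact ⟨m, by exact_mod_cast h1⟩
  · intro b _ hb
    exact hQ b b.2 (fun hh => hb (Subtype.ext hh))
  · intro hh; exact absurd (Finset.mem_univ _) hh

theorem not_dvd_index (h : TwoClass χ x) (hG : 2 < Nat.card G) {p : ℕ} [hp : Fact p.Prime]
    (hNp : IsPGroup p (N χ)) : ¬ p ∣ (Subgroup.centralizer {x}).index := by
  intro hd
  haveI : Nontrivial (N χ) := (Subgroup.nontrivial_iff_ne_bot _).mpr (h.N_ne_bot hG)
  have h1 : p ∣ Nat.card (N χ) := by
    obtain ⟨j, hj⟩ := IsPGroup.iff_card.mp hNp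
    have hj0 : j ≠ 0 := by
      rintro rfl
      rw [pow_zero] at hj
      have := Finite.one_lt_card (α := N χ)
      omega
    rw [hj]
    exact dvd_pow_self p hj0
  rw [card_N h hG] at h1
  have h2 : p ∣ 1 := (Nat.dvd_add_left hd).mp h1
  exact hp.out.one_lt.ne' (Nat.dvd_one.mp h2)

theorem centralizer_card (h : TwoClass χ x) (hG : 2 < Nat.card G) {p : ℕ} [hp : Fact p.Prime]
    (hNp : IsPGroup p (N χ)) : ∃ m : ℕ, Nat.card (Subgroup.centralizer {x}) = p ^ m := by
  refine ⟨_, Nat.eq_prime_pow_of_unique_prime_dvd Nat.card_pos.ne' ?_⟩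
  intro q hq hqc
  by_contra hqp
  haveI : Fact q.Prime := ⟨hq⟩
  obtain ⟨Q⟩ : Nonempty (Sylow q G) := inferInstance
  have hQ : ∀ g ∈ (Q : Subgroup G), g ≠ 1 → χ g = 0 := by
    intro g hg hg1
    by_contra h0
    have hgN := (h.mem_N_iff hG g).mpr h0
    obtain ⟨a, ha⟩ := Q.isPGroup' ⟨g, hg⟩
    obtain ⟨b, hb⟩ := hNp ⟨g, hgN⟩
    have ha' : g ^ q ^ a = 1 := congrArg Subtype.val ha
    have hb' : g ^ p ^ b = 1 := congrArg Subtype.val hb
    have h1 := orderOf_dvd_of_pow_eq_one ha'
    have h2 := orderOf_dvd_of_pow_eq_one hb'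
    have h3 : Nat.Coprime (q ^ a) (p ^ b) :=
      Nat.Coprime.pow _ _ ((Nat.coprime_primes hq hp.out).mpr hqp)
    exact hg1 (orderOf_eq_one_iff.mp (Nat.eq_one_of_dvd_coprimes h3 h1 h2))
  have h1 := card_dvd_deg h Q hQ
  rw [Q.card_eq_multiplicity] at h1
  have hd0 : charDegree χ ≠ 0 := (charDegree_pos h.irr).ne'
  have h2 := (Nat.Prime.pow_dvd_iff_le_factorization hq hd0).mp h1
  have hc0 : Nat.card (Subgroup.centralizer {x}) ≠ 0 := Nat.card_pos.ne'
  have hk0 : (Subgroup.centralizer {x}).index ≠ 0 := Subgroup.index_ne_zero_of_finite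
  have hn0 : Nat.card (N χ) ≠ 0 := Nat.card_pos.ne'
  have h3 := congrArg (fun t => t.factorization q) (deg_eq h hG)
  rw [Nat.factorization_mul (pow_ne_zero 2 hd0) hn0, Nat.factorization_mul hc0 (pow_ne_zero 2 hk0),
    Nat.factorization_pow, Nat.factorization_pow] at h3
  simp only [Finsupp.add_apply, Finsupp.smul_apply, smul_eq_mul] at h3
  have h4 : (Nat.card (N χ)).factorization q = 0 := by
    apply Nat.factorization_eq_zero_of_not_dvd
    obtain ⟨j, hj⟩ := IsPGroup.iff_card.mp hNp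
    rw [hj]
    intro hh
    exact hqp ((Nat.prime_dvd_prime_iff_eq hq hp.out).mp (hq.dvd_of_dvd_pow hh))
  rw [← Subgroup.card_mul_index (Subgroup.centralizer {x}), Nat.factorization_mul hc0 hk0,
    Finsupp.add_apply] at h2
  have h5 : (Nat.card (Subgroup.centralizer {x})).factorization q = 0 := by omega
  have h6 := (Nat.Prime.dvd_iff_one_le_factorization hq hc0).mp hqc
  omega

/-- the centraliser of a nonidentity element of `N` is a Sylow subgroup. -/
theorem exists_sylow_centralizer (h : TwoClass χ x) (hG : 2 < Nat.card G) {p : ℕ}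
    [hp : Fact p.Prime] (hNp : IsPGroup p (N χ)) :
    ∃ P : Sylow p G, Subgroup.centralizer ({x} : Set G) = P := by
  obtain ⟨m, hm⟩ := centralizer_card h hG hNp
  exact ⟨(IsPGroup.of_card hm).toSylow (not_dvd_index h hG hNp), rfl⟩

theorem constituent (h : TwoClass χ x) (hG : 2 < Nat.card G) [Fintype (N χ)] {μ : N χ → ℂ}
    (hμ : IsIrrCharacter (N χ) μ) (hμ1 : μ ≠ fun _ => 1) :
    classInner (fun n : N χ => χ n) μ ≠ 0 := by
  classical
  have h1 := classInner_irr (isIrrCharacter_one (G := N χ)) hμ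
  rw [if_neg (Ne.symm hμ1)] at h1
  unfold classInner at h1 ⊢
  simp only [one_mul] at h1
  have hN0 : (Nat.card (N χ) : ℂ) ≠ 0 := card_ne_zero
  have h2 : ∑ n : N χ, conj (μ n) = 0 := by
    rcases mul_eq_zero.mp h1 with h2 | h2
    · exact absurd h2 (inv_ne_zero hN0)
    · exact h2
  have e : ∀ n : N χ, χ n * conj (μ n) =
      χ x * conj (μ n) + (if n = 1 then (χ 1 - χ x) * conj (μ 1) else 0) := by
    intro n
    by_cases hn : n = 1
    · rw [if_pos hn, hn]
      simp only [OneMemClass.coe_one]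
      ring
    · rw [if_neg hn, add_zero]
      have hn1 : (n : G) ≠ 1 := fun hh => hn (Subtype.ext hh)
      rw [IsClassFunction.eq_of_isConj (IsIrrCharacter.isClassFunction h.irr)
        (h.isConj_of_mem hG n.2 hn1)]
  rw [Finset.sum_congr rfl (fun n _ => e n), Finset.sum_add_distrib, ← Finset.mul_sum, h2,
    mul_zero, zero_add, Finset.sum_ite_eq' Finset.univ (1 : N χ), if_pos (Finset.mem_univ _)]
  refine mul_ne_zero (inv_ne_zero hN0) (mul_ne_zero ?_ ?_)
  · intro hh
    exact h.ne_one (h.faithful hG x (sub_eq_zero.mp hh).symm)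
  · intro hh
    exact irr_one_ne_zero hμ ((map_eq_zero (starRingEnd ℂ)).mp hh)

theorem card_irr_N (h : TwoClass χ x) (hG : 2 < Nat.card G) :
    Nat.card (IrrCharacter (N χ)) = Nat.card (N χ) := by
  rw [card_irr]
  letI : CommGroup (N χ) :=
    { (inferInstance : Group (N χ)) with
      mul_comm := fun a b => Subtype.ext (h.comm hG a a.2 b b.2) }
  exact (Nat.card_congr (ConjClasses.mkEquiv (α := N χ))).symm

theorem index_stabilizer (h : TwoClass χ x) (hG : 2 < Nat.card G) (μ : IrrCharacter (N χ))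
    (hμ1 : μ.1 ≠ fun _ => 1) :
    (letI := irrAction (N χ); (MulAction.stabilizer G μ).index) =
      (Subgroup.centralizer {x}).index := by
  classical
  letI := irrAction (N χ)
  haveI := Fintype.ofFinite (N χ)
  haveI := Fintype.ofFinite (IrrCharacter (N χ))
  have h1 : MulAction.orbit G μ =
      ({(⟨_, isIrrCharacter_one (G := N χ)⟩ : IrrCharacter (N χ))} : Set _)ᶜ := by
    ext μ'
    rw [Set.mem_compl_iff, Set.mem_singleton_iff, MulAction.mem_orbit_iff]
    constructor
    · rintro ⟨g, rfl⟩ hh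
      apply hμ1
      have h2 : conjFun (N χ) μ.1 g⁻¹ = fun _ => 1 := congrArg Subtype.val hh
      funext n
      have h3 := congrFun h2 ⟨g * n * g⁻¹, (N_normal χ).conj_mem n n.2 g⟩
      rw [conjFun_apply] at h3
      rw [← h3]
      refine congrArg μ.1 (Subtype.ext ?_)
      simp [mul_assoc]
    · intro hh
      have hμ' : μ'.1 ≠ fun _ => 1 := fun h2 => hh (Subtype.ext h2)
      obtain ⟨g, hg⟩ := clifford_conj (N χ) h.irr μ.2 μ'.2 (constituent h hG μ.2 hμ1)
        (constituent h hG μ'.2 hμ')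
      refine ⟨g⁻¹, Subtype.ext ?_⟩
      change conjFun (N χ) μ.1 g⁻¹⁻¹ = μ'.1
      rw [inv_inv, hg]
  rw [MulAction.index_stabilizer, h1, Set.ncard_eq_toFinset_card', Set.toFinset_compl,
    Finset.card_compl, Set.toFinset_singleton, Finset.card_singleton, ← Nat.card_eq_fintype_card,
    card_irr_N h hG, card_N h hG]
  omega

theorem exists_sylow_stabilizer (h : TwoClass χ x) (hG : 2 < Nat.card G) {p : ℕ}
    [hp : Fact p.Prime] (hNp : IsPGroup p (N χ)) (μ : IrrCharacter (N χ))
    (hμ1 : μ.1 ≠ fun _ => 1) :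
    ∃ P : Sylow p G, (letI := irrAction (N χ); MulAction.stabilizer G μ) = P := by
  letI := irrAction (N χ)
  obtain ⟨m, hm⟩ := centralizer_card h hG hNp
  have h1 := index_stabilizer h hG μ hμ1
  have h2 : Nat.card (MulAction.stabilizer G μ) = p ^ m := by
    have h3 := Subgroup.card_mul_index (MulAction.stabilizer G μ)
    have h4 := Subgroup.card_mul_index (Subgroup.centralizer {x})
    rw [h1] at h3
    rw [← h4] at h3
    rw [← hm]
    exact Nat.eq_of_mul_eq_mul_right (Nat.pos_of_ne_zero Subgroup.index_ne_zero_of_finite) h3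
  exact ⟨(IsPGroup.of_card h2).toSylow (by rw [h1]; exact not_dvd_index h hG hNp), rfl⟩

end TwoClass

end Cfsg.Agent.Lib.Helper7.Gagola2
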