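import Mathlib
import Cfsg.Prelude.Def_Characters
import Cfsg.Agent.Lib.Helper7.All1
import Cfsg.Agent.Lib.Helper7.CharKer
import Cfsg.Agent.Lib.Helper7.Gagola1
import Cfsg.Agent.Lib.Helper7.CharDeg
import Cfsg.Agent.Lib.Helper7.OpRes1
import Cfsg.Agent.Lib.Helper7.Gagola2

set_option autoImplicit false
set_option linter.style.haveILetI false
set_option linter.unusedSectionVars false
set_option linter.unusedVariables false
set_option linter.unusedSimpArgs false

namespace Cfsg.Agent.Lib.Helper7.Gagola3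

open Module Representation Cfsg
open Cfsg.Agent.Lib.Helper7.CharBasic Cfsg.Agent.Lib.Helper7.CharIrr Cfsg.Agent.Lib.Helper7.CharDecomp Cfsg.Agent.Lib.Helper7.CharComplete Cfsg.Agent.Lib.Helper7.CharOrth Cfsg.Agent.Lib.Helper7.CharInd Cfsg.Agent.Lib.Helper7.CharIntegral Cfsg.Agent.Lib.Helper7.CharBurnside Cfsg.Agent.Lib.Helper7.CharLinear Cfsg.Agent.Lib.Helper7.CharEquiv Cfsg.Agent.Lib.Helper7.CharMore Cfsg.Agent.Lib.Helper7.CharCount Cfsg.Agent.Lib.Helper7.CharMisc Cfsg.Agent.Lib.Helper7.CharMisc2 Cfsg.Agent.Lib.Helper7.CharNormal Cfsg.Agent.Lib.Helper7.CharOdd Cfsg.Agent.Lib.Helper7.CharClifford Cfsg.Agent.Lib.Helper7.CharProd Cfsg.Agent.Lib.Helper7.CharPerm Cfsg.Agent.Lib.Helper7.CharClassAlg Cfsg.Agent.Lib.Helper7.CharClassAlg2 Cfsg.Agent.Lib.Helper7.CharCentral Cfsg.Agent.Lib.Helper7.CharNormal2 Cfsg.Agent.Lib.Helper7.CharCliffordCorr Cfsg.Agent.Lib.Helper7.CharKer Cfsg.Agent.Lib.Helper7.Gagola1 Cfsg.Agent.Lib.Helper7.CharDeg Cfsg.Agent.Lib.Helper7.OpRes1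 Cfsg.Agent.Lib.Helper7.Gagola2
open scoped ComplexConjugate

variable {G : Type*} [Group G]

open Gagola1.TwoClass Gagola2.TwoClass

variable [Fintype G] {χ : G → ℂ} {x : G}

theorem card_centralizer_quot (h : TwoClass χ x) (hG : 2 < Nat.card G) {y : G} (hy : y ∉ N χ) :
    Nat.card (Subgroup.centralizer ({y} : Set G)) =
      Nat.card (Subgroup.centralizer ({(y : G ⧸ N χ)} : Set (G ⧸ N χ))) := by
  classical
  haveI := Fintype.ofFinite (IrrCharacter G)
  haveI := Fintype.ofFinite (G ⧸ N χ)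
  haveI := Fintype.ofFinite (IrrCharacter (G ⧸ N χ))
  have h1 := col_orth y y
  have h2 := col_orth (y : G ⧸ N χ) (y : G ⧸ N χ)
  rw [if_pos (IsConj.refl _)] at h1 h2
  have hy0 : χ y = 0 := by
    by_contra h0
    exact hy ((h.mem_N_iff hG y).mpr h0)
  have h3 : ∑ φ : IrrCharacter (G ⧸ N χ), φ.1 (y : G ⧸ N χ) * conj (φ.1 (y : G ⧸ N χ)) =
      ∑ ψ : IrrCharacter G with ψ.1 ≠ χ, ψ.1 y * conj (ψ.1 y) := by
    refine Finset.sum_bij (fun φ _ => ⟨fun g : G => φ.1 (g : G ⧸ N χ),
      isIrrCharacter_comp_mk (N χ) φ.2⟩) ?_ ?_ ?_ ?_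
    · intro φ _
      simp only [Finset.mem_filter, Finset.mem_univ, true_and]
      intro hh
      apply h.ne_one
      apply h.faithful hG x
      rw [← hh]
      have : (x : G ⧸ N χ) = ((1 : G) : G ⧸ N χ) := by
        rw [QuotientGroup.mk_one, QuotientGroup.eq_one_iff]
        exact h.x_mem hG
      simp only [this]
    · intro φ _ φ' _ hh
      apply Subtype.ext
      funext g
      obtain ⟨g, rfl⟩ := QuotientGroup.mk_surjective g
      exact congrFun (congrArg Subtype.val hh) g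
    · intro ψ hψ
      simp only [Finset.mem_filter, Finset.mem_univ, true_and] at hψ
      obtain ⟨φ, hφ, hφ2⟩ := exists_quot_of_irr (N χ) ψ.2
        (fun n hn => (mem_N χ n).mp hn ψ.1 ψ.2 hψ)
      exact ⟨⟨φ, hφ⟩, Finset.mem_univ _, Subtype.ext hφ2.symm⟩
    · intro φ _
      rfl
  have h4 : ∑ ψ : IrrCharacter G with ψ.1 ≠ χ, ψ.1 y * conj (ψ.1 y) =
      ∑ ψ : IrrCharacter G, ψ.1 y * conj (ψ.1 y) := by
    refine Finset.sum_filter_of_ne fun ψ _ hne hh => ?_
    apply hne
    rw [hh, hy0, zero_mul]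
  rw [h3, h4, h1] at h2
  exact_mod_cast h2

section Syl

variable {p : ℕ} [hp : Fact p.Prime]

theorem card_mul_dvd (h : TwoClass χ x) (hG : 2 < Nat.card G) (hNp : IsPGroup p (N χ))
    (P : Sylow p G) (z : (P : Subgroup G)) (hz : (z : G) ∉ N χ) :
    Nat.card (Subgroup.centralizer ({z} : Set (P : Subgroup G))) * Nat.card (N χ) ∣
      Nat.card (P : Subgroup G) := by
  have h1 : (Subgroup.centralizer ({z} : Set (P : Subgroup G))).map (P : Subgroup G).subtype ≤
      Subgroup.centralizer ({(z : G)} : Set G) := by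
    rintro _ ⟨c, hc, rfl⟩
    rw [Subgroup.mem_centralizer_singleton_iff]
    have := Subgroup.mem_centralizer_singleton_iff.mp hc
    exact congrArg Subtype.val this
  have h2 := Subgroup.card_dvd_of_le h1
  rw [Subgroup.card_map_of_injective (Subgroup.subtype_injective _),
    card_centralizer_quot h hG hz] at h2
  have h3 : Nat.card (Subgroup.centralizer ({((z : G) : G ⧸ N χ)} : Set (G ⧸ N χ))) ∣
      Nat.card (G ⧸ N χ) := Subgroup.card_subgroup_dvd_card _
  have h4 := Nat.mul_dvd_mul_right (h2.trans h3) (Nat.card (N χ))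
  have h5 : Nat.card (G ⧸ N χ) * Nat.card (N χ) = Nat.card G := by
    rw [← Subgroup.index_eq_card, mul_comm, Subgroup.card_mul_index]
  rw [h5, ← Subgroup.card_mul_index (P : Subgroup G)] at h4
  obtain ⟨a, ha⟩ := IsPGroup.iff_card.mp hNp
  obtain ⟨b, hb⟩ := IsPGroup.iff_card.mp
    (P.isPGroup'.to_subgroup (Subgroup.centralizer ({z} : Set (P : Subgroup G))))
  refine Nat.Coprime.dvd_of_dvd_mul_right ?_ h4
  rw [ha, hb, ← pow_add]
  exact Nat.Coprime.pow_left _ ((Nat.Prime.coprime_iff_not_dvd hp.out).mpr P.not_dvd_index)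

theorem center_le (h : TwoClass χ x) (hG : 2 < Nat.card G) (hNp : IsPGroup p (N χ))
    (P : Sylow p G) :
    (Subgroup.center ↥(P : Subgroup G)).map (P : Subgroup G).subtype ≤ N χ := by
  rintro _ ⟨z, hz, rfl⟩
  by_contra hzN
  have h1 := card_mul_dvd h hG hNp P z hzN
  have h2 : Subgroup.centralizer ({z} : Set (P : Subgroup G)) = ⊤ := by
    rw [eq_top_iff]
    intro c _
    rw [Subgroup.mem_centralizer_singleton_iff]
    exact (Subgroup.mem_center_iff.mp hz c)
  rw [h2, Subgroup.card_top] at h1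
  have h3 : Nat.card (N χ) ∣ 1 :=
    Nat.dvd_of_mul_dvd_mul_left (Nat.card_pos (α := (P : Subgroup G))) (by rwa [mul_one])
  haveI : Nontrivial (N χ) := (Subgroup.nontrivial_iff_ne_bot _).mpr (h.N_ne_bot hG)
  have := Finite.one_lt_card (α := N χ)
  have := Nat.dvd_one.mp h3
  omega

theorem center_eq_iff (h : TwoClass χ x) (hG : 2 < Nat.card G) (hNp : IsPGroup p (N χ))
    (P : Sylow p G) :
    (Subgroup.center ↥(P : Subgroup G)).map (P : Subgroup G).subtype = N χ ↔
      (P : Subgroup G).Normal := by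
  have hNP : N χ ≤ P := hNp.le_sylow_of_normal P
  constructor
  · intro heq
    have key : ∀ y ∈ N χ, y ≠ 1 → Subgroup.centralizer ({y} : Set G) = P := by
      intro y hy hy1
      obtain ⟨P', hP'⟩ := exists_sylow_centralizer (of_mem h hG hy hy1) hG hNp
      have h1 : (P : Subgroup G) ≤ Subgroup.centralizer ({y} : Set G) := by
        intro g hg
        rw [Subgroup.mem_centralizer_singleton_iff]
        rw [← heq] at hy
        obtain ⟨z, hz, rfl⟩ := hy
        have := Subgroup.mem_center_iff.mp hz ⟨g, hg⟩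
        exact congrArg Subtype.val this
      have h2 : IsPGroup p (Subgroup.centralizer ({y} : Set G)) := by
        rw [hP']; exact P'.isPGroup'
      exact P.is_maximal' h2 h1
    constructor
    intro n hn g
    have hx := h.x_mem hG
    have h1 : g⁻¹ * x * g⁻¹⁻¹ ∈ N χ := (N_normal χ).conj_mem x hx g⁻¹
    have h2 : g⁻¹ * x * g⁻¹⁻¹ ≠ 1 := by
      intro hh
      apply h.ne_one
      have : x = g * (g⁻¹ * x * g⁻¹⁻¹) * g⁻¹ := by group
      rw [this, hh]; group
    rw [← key _ h1 h2, Subgroup.mem_centralizer_singleton_iff] at hn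
    rw [← key x hx h.ne_one, Subgroup.mem_centralizer_singleton_iff]
    have h3 : g * (n * (g⁻¹ * x * g⁻¹⁻¹)) * g⁻¹ = g * ((g⁻¹ * x * g⁻¹⁻¹) * n) * g⁻¹ := by rw [hn]
    calc g * n * g⁻¹ * x = g * (n * (g⁻¹ * x * g⁻¹⁻¹)) * g⁻¹ := by group
      _ = g * ((g⁻¹ * x * g⁻¹⁻¹) * n) * g⁻¹ := h3
      _ = x * (g * n * g⁻¹) := by group
  · intro hPn
    haveI := hPn
    refine le_antisymm (center_le h hG hNp P) ?_
    apply h.N_le hG _ inferInstance
    haveI : Nontrivial (P : Subgroup G) := by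
      rw [Subgroup.nontrivial_iff_ne_bot]
      intro hb
      apply h.N_ne_bot hG
      rw [eq_bot_iff, ← hb]
      exact hNP
    haveI := P.isPGroup'.center_nontrivial
    intro hb
    rw [Subgroup.map_eq_bot_iff_of_injective _ (Subgroup.subtype_injective _)] at hb
    exact (Subgroup.nontrivial_iff_ne_bot _).mp inferInstance hb

theorem exists_upper (h : TwoClass χ x) (hG : 2 < Nat.card G) (hNp : IsPGroup p (N χ))
    (P : Sylow p G) :
    ∃ i : ℕ, Subgroup.upperCentralSeries ↥(P : Subgroup G) i =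
      (N χ).subgroupOf (P : Subgroup G) := by
  classical
  have hNP : N χ ≤ P := hNp.le_sylow_of_normal P
  haveI := P.isPGroup'.isNilpotent
  obtain ⟨c, hc⟩ := Group.IsNilpotent.nilpotent' (G := (P : Subgroup G))
  by_cases htop : (N χ).subgroupOf (P : Subgroup G) = ⊤
  · exact ⟨c, by rw [hc, htop]⟩
  have hex : ∃ j, ¬ Subgroup.upperCentralSeries ↥(P : Subgroup G) j ≤
      (N χ).subgroupOf (P : Subgroup G) := ⟨c, by
    rw [hc, top_le_iff]; exact htop⟩
  obtain ⟨j, hj⟩ : ∃ j, j = Nat.find hex := ⟨_, rfl⟩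
  have hj1 := Nat.find_spec hex
  rw [← hj] at hj1
  have hj0 : j ≠ 0 := by
    rintro rfl
    apply hj1
    rw [Subgroup.upperCentralSeries_zero]
    exact bot_le
  obtain ⟨i, rfl⟩ := Nat.exists_eq_succ_of_ne_zero hj0
  have hi : Subgroup.upperCentralSeries ↥(P : Subgroup G) i ≤
      (N χ).subgroupOf (P : Subgroup G) := by
    by_contra hh
    have := Nat.find_min' hex hh
    omega
  refine ⟨i, ?_⟩
  obtain ⟨z, hz, hzN⟩ := SetLike.not_le_iff_exists.mp hj1
  have hzN' : (z : G) ∉ N χ := fun hh => hzN (Subgroup.mem_subgroupOf.mpr hh)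
  have h1 := card_mul_dvd h hG hNp P z hzN'
  have h2 : (Subgroup.centralizer ({z} : Set (P : Subgroup G))).index ≤
      Nat.card (Subgroup.upperCentralSeries ↥(P : Subgroup G) i) := by
    rw [index_centralizer_eq_ncard]
    have h0 : Nat.card (Subgroup.upperCentralSeries ↥(P : Subgroup G) i) =
      ((Subgroup.upperCentralSeries ↥(P : Subgroup G) i : Subgroup _) :
        Set (P : Subgroup G)).ncard := Nat.card_coe_set_eq _
    rw [h0]
    refine Set.ncard_le_ncard_of_injOn (fun w => w * z⁻¹) ?_ ?_ (Set.toFinite _)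
    · intro w hw
      obtain ⟨g, hg⟩ := isConj_iff.mp hw
      have h3 : z * g * z⁻¹ * g⁻¹ ∈ Subgroup.upperCentralSeries ↥(P : Subgroup G) i :=
        Subgroup.mem_upperCentralSeries_succ_iff.mp hz g
      have h4 : w * z⁻¹ = (z * g * z⁻¹ * g⁻¹)⁻¹ := by
        rw [← hg]; group
      change w * z⁻¹ ∈ Subgroup.upperCentralSeries ↥(P : Subgroup G) i
      rw [h4]
      exact Subgroup.inv_mem _ h3
    · intro a _ b _ hab
      exact mul_right_cancel hab
  have h3 := Nat.le_of_dvd Nat.card_pos h1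
  have h4 := Subgroup.card_mul_index (Subgroup.centralizer ({z} : Set (P : Subgroup G)))
  have h5 : Nat.card ((N χ).subgroupOf (P : Subgroup G)) = Nat.card (N χ) :=
    Nat.card_congr (Subgroup.subgroupOfEquivOfLe hNP).toEquiv
  apply Subgroup.eq_of_le_of_card_ge hi
  rw [h5]
  have h6 : 0 < Nat.card (Subgroup.centralizer ({z} : Set (P : Subgroup G))) := Nat.card_pos
  rw [← h4] at h3
  have h7 := Nat.le_of_mul_le_mul_left h3 h6
  exact h7.trans h2

end Syl

end Cfsg.Agent.Lib.Helper7.Gagola3
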