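import Mathlib

set_option autoImplicit false
set_option linter.style.haveILetI false
set_option linter.unusedSectionVars false
set_option linter.unusedVariables false
set_option linter.unusedSimpArgs false

namespace Cfsg.Agent.Lib.Helper7.PerfQ

theorem ker_top_of_perfect {H A : Type*} [Group H] [Group A] (hH : commutator H = ⊤) (f : H →* A)
    (hA : ∀ x y : A, x * y = y * x) (h : H) : f h = 1 := by
  have h1 : commutator H ≤ f.ker := by
    rw [commutator_def, Subgroup.commutator_le]
    intro a _ b _
    rw [MonoidHom.mem_ker, commutatorElement_def, map_mul, map_mul, map_mul, map_inv, map_inv,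
      hA (f a) (f b)]
    group
  have : h ∈ f.ker := h1 (hH ▸ Subgroup.mem_top h)
  exact this

theorem not_perfect_aux {H : Type*} [Group H] [Finite H] {q n : ℕ} (hq : q.Prime) (hn : 0 < n)
    (hsq : n * n ≤ Nat.card H) (hc : Nat.card H = q * n) (hH : commutator H = ⊤) : False := by
  haveI : Fact q.Prime := ⟨hq⟩
  have hnq : n ≤ q := by
    rw [hc] at hsq
    exact Nat.le_of_mul_le_mul_right hsq hn
  rcases hnq.eq_or_lt with h | h
  · subst h
    have h2 : Nat.card H = n ^ 2 := by rw [hc]; ring
    have h3 := IsPGroup.commutative_of_card_eq_prime_sq h2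
    have h4 : ∀ x : H, x = 1 := fun x => ker_top_of_perfect hH (MonoidHom.id H) h3 x
    have h5 : Nat.card H = 1 := by
      haveI : Subsingleton H := ⟨fun a b => by rw [h4 a, h4 b]⟩
      exact Nat.card_eq_one_iff_unique.mpr ⟨inferInstance, ⟨1⟩⟩
    rw [h5] at h2
    have := hq.two_le
    nlinarith
  · obtain ⟨Q⟩ : Nonempty (Sylow q H) := inferInstance
    have hQc : Nat.card (Q : Subgroup H) = q := by
      rw [Sylow.card_eq_multiplicity, hc]
      have : (q * n).factorization q = 1 := by
        rw [Nat.factorization_mul hq.ne_zero hn.ne', Finsupp.add_apply, hq.factorization_self,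
          Nat.factorization_eq_zero_of_not_dvd
            (fun hd => absurd (Nat.le_of_dvd hn hd) (not_le.mpr h))]
      rw [this, pow_one]
    have hidx : (Q : Subgroup H).index = n := by
      have := (Q : Subgroup H).card_mul_index
      rw [hQc, hc] at this
      exact Nat.eq_of_mul_eq_mul_left hq.pos this
    have h1 : Nat.card (Sylow q H) = 1 := by
      have h2 := card_sylow_modEq_one q H
      have h3 := Q.card_dvd_index
      rw [hidx] at h3
      have h4 := Nat.le_of_dvd hn h3
      have h5 : Nat.card (Sylow q H) < q := lt_of_le_of_lt h4 h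
      unfold Nat.ModEq at h2
      rw [Nat.mod_eq_of_lt h5, Nat.mod_eq_of_lt hq.one_lt] at h2
      exact h2
    haveI : Subsingleton (Sylow q H) := (Nat.card_eq_one_iff_unique.mp h1).1
    haveI hQn : (Q : Subgroup H).Normal := Q.normal_of_subsingleton
    haveI : IsCyclic (Q : Subgroup H) := isCyclic_of_prime_card hQc
    let f : H →* (ZMod (Nat.card (Q : Subgroup H)))ˣ :=
      (IsCyclic.mulAutMulEquiv (Q : Subgroup H)).toMonoidHom.comp (MulAut.conjNormal)
    have hf : ∀ x, f x = 1 := ker_top_of_perfect hH f mul_comm
    have hconj : ∀ x : H, (MulAut.conjNormal x : MulAut (Q : Subgroup H)) = 1 := by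
      intro x
      have := hf x
      exact (IsCyclic.mulAutMulEquiv (Q : Subgroup H)).injective (by rw [map_one]; exact this)
    have hNC : Subgroup.normalizer ((Q : Subgroup H) : Set H) ≤ Subgroup.centralizer ((Q : Subgroup H) : Set H) := by
      intro x _
      rw [Subgroup.mem_centralizer_iff]
      intro y hy
      have := congrArg (fun a : MulAut (Q : Subgroup H) => ((a ⟨y, hy⟩ : (Q : Subgroup H)) : H))
        (hconj x)
      simp only [MulAut.conjNormal_apply, MulAut.one_apply] at this
      calc y * x = (x * y * x⁻¹) * x := by rw [this]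
        _ = x * y := by group
    have hcomp := MonoidHom.ker_transferSylow_isComplement' Q hNC
    have hker : (MonoidHom.transferSylow Q hNC).ker = ⊤ := by
      ext x
      simp only [MonoidHom.mem_ker, Subgroup.mem_top, iff_true]
      refine ker_top_of_perfect hH _ ?_ x
      intro a b
      exact Subtype.ext (hNC (Subgroup.le_normalizer b.2) a a.2)
    have := hcomp.card_mul
    rw [hker, Subgroup.card_top, hQc] at this
    have hpos : 0 < Nat.card H := Nat.card_pos
    have h2 := hq.two_le
    nlinarith

theorem commutator_quot_top {G : Type*} [Group G] (K : Subgroup G) [K.Normal]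
    (h : commutator G = ⊤) : commutator (G ⧸ K) = ⊤ := by
  have h1 : (⊤ : Subgroup (G ⧸ K)) = (⊤ : Subgroup G).map (QuotientGroup.mk' K) :=
    (Subgroup.map_top_of_surjective _ (QuotientGroup.mk'_surjective K)).symm
  rw [commutator_def, h1, ← Subgroup.map_commutator, ← commutator_def, h]

/-- a nontrivial hom to the units of `ℂ` gives one whose kernel has prime index. -/
theorem exists_prime_index {G : Type*} [Group G] [Finite G] (l : G →* ℂˣ) (hl : l ≠ 1) :
    ∃ l' : G →* ℂˣ, (l'.ker.index).Prime := by
  have hfin : l ^ Nat.card G = 1 := by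
    ext g
    simp only [MonoidHom.pow_apply, MonoidHom.one_apply]
    rw [← map_pow, pow_card_eq_one', map_one]
  have hm0 : 0 < orderOf l := orderOf_pos_iff.mpr (isOfFinOrder_iff_pow_eq_one.mpr ⟨_, Nat.card_pos, hfin⟩)
  have hm1 : orderOf l ≠ 1 := by
    rw [Ne, orderOf_eq_one_iff]; exact hl
  set q := (orderOf l).minFac with hq
  have hqp : q.Prime := Nat.minFac_prime hm1
  haveI : Fact q.Prime := ⟨hqp⟩
  haveI : NeZero q := ⟨hqp.ne_zero⟩
  have hqd : q ∣ orderOf l := Nat.minFac_dvd _
  refine ⟨l ^ (orderOf l / q), ?_⟩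
  set l' := l ^ (orderOf l / q) with hl'
  have ho : orderOf l' = q := orderOf_pow_orderOf_div hm0.ne' hqd
  have h1 : l'.range ≤ rootsOfUnity q ℂ := by
    rintro _ ⟨g, rfl⟩
    rw [mem_rootsOfUnity]
    have : l' ^ q = 1 := by rw [← ho]; exact pow_orderOf_eq_one l'
    have := DFunLike.congr_fun this g
    simpa using this
  have h2 : Nat.card l'.range ∣ q := by
    have := Subgroup.card_dvd_of_le h1
    rwa [Complex.card_rootsOfUnity] at this
  rw [Subgroup.index_ker]
  rcases (Nat.dvd_prime hqp).mp h2 with h3 | h3
  · exfalso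
    have h4 : l' = 1 := by
      ext g
      have h5 : l'.range = ⊥ := (Subgroup.card_eq_one).mp h3
      have h6 : l' g ∈ l'.range := ⟨g, rfl⟩
      rw [h5, Subgroup.mem_bot] at h6
      simp [h6]
    rw [h4, orderOf_one] at ho
    exact hqp.one_lt.ne ho
  · rw [h3]; exact hqp

end Cfsg.Agent.Lib.Helper7.PerfQ
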